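import Cfsg.Agent.Lib.ReeG2.Ab7
import Cfsg.Agent.Lib.Solvable.Fitting
import Cfsg.Agent.Lib.Solvable.Basic
import Cfsg.Agent.Lib.Core.Basic

/-!
# Abstract Ree-type groups: solvable subgroups lie in local normalisers
-/

set_option autoImplicit false
set_option linter.unusedSectionVars false
set_option linter.unusedVariables false
set_option linter.unusedTactic false
set_option linter.unreachableTactic false

namespace Cfsg.Agent.Lib.ReeG2.Ab8

open Cfsg.Agent.Lib.ReeG2.Rank1 Cfsg.Agent.Lib.ReeG2.Rank1.Sp Cfsg.Agent.Lib.ReeG2.Ab1 Cfsg.Agent.Lib.ReeG2.Ab2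
  Cfsg.Agent.Lib.ReeG2.Ab3 Cfsg.Agent.Lib.ReeG2.Ab4 Cfsg.Agent.Lib.ReeG2.Ab5 Cfsg.Agent.Lib.ReeG2.Ab6 Cfsg.Agent.Lib.ReeG2.Ab7
open Cfsg.Agent.Lib.Solvable.Basic

variable {G : Type*} [Group G] [Finite G]

/-- The list of subgroups in the statement. -/
def Tgt (G : Type*) [Group G] (m : ℕ) (A : Subgroup G) : Prop :=
  (∃ P : Sylow 2 G, A = P) ∨ (∃ P : Sylow 3 G, A = P) ∨
    (IsCyclic A ∧ (Nat.card A = (3 ^ (2 * m + 1) - 1) / 2 ∨ Nat.card A = (3 ^ (2 * m + 1) + 1) / 4 ∨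
      Nat.card A = 3 ^ (2 * m + 1) - 3 ^ (m + 1) + 1 ∨ Nat.card A = 3 ^ (2 * m + 1) + 3 ^ (m + 1) + 1))

lemma mem_map_conj {D : Subgroup G} {t y : G} : y ∈ D.map (MulAut.conj t⁻¹).toMonoidHom ↔ t * y * t⁻¹ ∈ D := by
  constructor
  · rintro ⟨z, hz, rfl⟩
    have e : t * ((MulAut.conj t⁻¹).toMonoidHom z) * t⁻¹ = z := by
      rw [conj_apply']
      group
    rw [e]
    exact hz
  · intro h
    refine ⟨_, h, ?_⟩
    rw [conj_apply']
    group

lemma conj_target {S D : Subgroup G} {t : G} (hS : ∀ s ∈ S, t * s * t⁻¹ ∈ Subgroup.normalizer (D : Set G)) :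
    S ≤ Subgroup.normalizer ((D.map (MulAut.conj t⁻¹).toMonoidHom : Subgroup G) : Set G) := by
  intro s hs
  rw [Subgroup.mem_normalizer_iff]
  intro y
  rw [mem_map_conj, mem_map_conj, Subgroup.mem_normalizer_iff.mp (hS s hs)]
  have e : t * s * t⁻¹ * (t * y * t⁻¹) * (t * s * t⁻¹)⁻¹ = t * (s * y * s⁻¹) * t⁻¹ := by group
  rw [e]

lemma norm_le_of_cyclic {C X : Subgroup G} (hC : IsCyclic C) (hX : X ≤ C) {x : G} (hx : x ∈ Subgroup.normalizer (C : Set G)) :
    x ∈ Subgroup.normalizer (X : Set G) := by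
  have hle : X.map (MulAut.conj x).toMonoidHom ≤ C := by
    rintro _ ⟨y, hy, rfl⟩
    rw [conj_apply']
    exact (Subgroup.mem_normalizer_iff.mp hx y).mp (hX hy)
  have e := eq_of_card_eq hC hle hX (card_map_conj X x)
  rw [Subgroup.mem_normalizer_iff]
  intro y
  constructor
  · intro hy
    rw [← e]
    exact ⟨y, hy, rfl⟩
  · intro hy
    rw [← e] at hy
    obtain ⟨z, hz, hzy⟩ := hy
    rw [conj_apply'] at hzy
    have : z = y := by simpa using hzy
    rw [← this]
    exact hz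

/-- The basic step: an abelian normal subgroup of prime exponent, one of whose elements is conjugate into
a subgroup `C` which is the centraliser of its elements of order `p`. -/
lemma local_step {P S C : Subgroup G} {p : ℕ} {x t : G} (hSP : S ≤ Subgroup.normalizer (P : Set G))
    (hcomm : ∀ y ∈ P, ∀ z ∈ P, y * z = z * y) (hexp : ∀ y ∈ P, y ^ p = 1) (hp : p.Prime) (hx : x ∈ P) (hx1 : x ≠ 1)
    (ht : t * x * t⁻¹ ∈ C) (hC : ∀ y ∈ C, orderOf y = p → Cz y = C) :
    ∀ s ∈ S, t * s * t⁻¹ ∈ Subgroup.normalizer (C : Set G) := by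
  haveI : Fact p.Prime := ⟨hp⟩
  have hord : ∀ y ∈ P, y ≠ 1 → orderOf y = p := fun y hy hy1 => orderOf_eq_prime (hexp y hy) hy1
  have hx' : Cz (t * x * t⁻¹) = C := hC _ ht (by rw [order_conj, hord x hx hx1])
  have hPC : ∀ y ∈ P, t * y * t⁻¹ ∈ C := by
    intro y hy
    rw [← hx']
    apply mem_Cz.mpr
    calc t * y * t⁻¹ * (t * x * t⁻¹) = t * (y * x) * t⁻¹ := by group
      _ = t * (x * y) * t⁻¹ := by rw [hcomm y hy x hx]
      _ = t * x * t⁻¹ * (t * y * t⁻¹) := by group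
  intro s hs
  have hz : s * x * s⁻¹ ∈ P := (Subgroup.mem_normalizer_iff.mp (hSP hs) x).mp hx
  have hz1 : s * x * s⁻¹ ≠ 1 := by
    intro h
    apply hx1
    have : x = s⁻¹ * (s * x * s⁻¹) * s := by group
    rw [this, h]
    group
  have e : t * s * t⁻¹ * (t * x * t⁻¹) * (t * s * t⁻¹)⁻¹ = t * (s * x * s⁻¹) * t⁻¹ := by group
  apply normalizer_of_centralizer hx'
  rw [e]
  exact hC _ (hPC _ hz) (by rw [order_conj, hord _ hz hz1])

variable {U H M A : Subgroup G} {n a : G} {m : ℕ} (R : Rd U H M A n a m)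

local notation "q" => 3 ^ (2 * m + 1)

include R

lemma two_elt {g : G} (k : ℕ) (h : g ^ 2 ^ k = 1) : g * g = 1 := by
  induction k with
  | zero =>
    simp only [pow_zero, pow_one] at h
    simp [h]
  | succ k ih =>
    cases k with
    | zero =>
      rw [← pow_two]
      simpa using h
    | succ k =>
      apply ih
      have h4 : (g ^ 2 ^ k) ^ 4 = 1 := by
        rw [← pow_mul, show 2 ^ k * 4 = 2 ^ (k + 1 + 1) by ring]
        exact h
      have h5 := R.no4 _ h4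
      rw [← pow_two, ← pow_mul, ← pow_succ] at h5
      exact h5

/-- The case `p = 3`. -/
theorem three_case {P S : Subgroup G} (hSP : S ≤ Subgroup.normalizer (P : Set G))
    (hcomm : ∀ y ∈ P, ∀ z ∈ P, y * z = z * y) (hexp : ∀ y ∈ P, y ^ 3 = 1) (hP1 : P ≠ ⊥) :
    ∃ A' : Subgroup G, S ≤ Subgroup.normalizer (A' : Set G) ∧ Tgt G m A' := by
  have SS := R.S
  obtain ⟨x, hx, hx1⟩ := (Subgroup.ne_bot_iff_exists_ne_one.mp hP1 : ∃ x : P, x ≠ 1) |>.imp (fun x h => h) |> fun ⟨x, h⟩ =>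
    (⟨x.1, x.2, fun h' => h (Subtype.ext h')⟩ : ∃ x : G, x ∈ P ∧ x ≠ 1)
  have h9x : x ^ 9 = 1 := by
    rw [show 9 = 3 * 3 by norm_num, pow_mul, hexp x hx, one_pow]
  obtain ⟨t, ht⟩ := three_conj R h9x hx1
  have hx1' : t * x * t⁻¹ ≠ 1 := by
    intro h
    apply hx1
    have : x = t⁻¹ * (t * x * t⁻¹) * t := by group
    rw [this, h]
    group
  have hPU : ∀ y ∈ P, t * y * t⁻¹ ∈ U := by
    intro y hy
    have hB : t * y * t⁻¹ ∈ B U H := by
      by_contra hB
      apply hx1'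
      apply SS.U_inf_conj hB ht
      have e : t * y * t⁻¹ * (t * x * t⁻¹) * (t * y * t⁻¹)⁻¹ = t * (y * x * y⁻¹) * t⁻¹ := by group
      rw [e, hcomm y hy x hx]
      simpa using ht
    obtain ⟨u, hu, h, hh, e⟩ := (SS.mem_B).mp hB
    have h9 : (u * h) ^ 9 = 1 := by
      rw [← e, conj_pow, show 9 = 3 * 3 by norm_num, pow_mul, hexp y hy]
      group
    have h0 := H_of_nine R hu hh h9
    rw [e, h0, mul_one]
    exact hu
  have hnorm : ∀ s ∈ S, t * s * t⁻¹ ∈ Subgroup.normalizer (U : Set G) := by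
    intro s hs
    have hB : t * s * t⁻¹ ∈ B U H := by
      by_contra hB
      apply hx1'
      apply SS.U_inf_conj hB ht
      have e : t * s * t⁻¹ * (t * x * t⁻¹) * (t * s * t⁻¹)⁻¹ = t * (s * x * s⁻¹) * t⁻¹ := by group
      rw [e]
      exact hPU _ ((Subgroup.mem_normalizer_iff.mp (hSP hs) x).mp hx)
    rw [Subgroup.mem_normalizer_iff]
    intro y
    constructor
    · intro hy
      exact SS.conj_U_eq_of_mem hB y hy
    · intro hy
      have := SS.conj_U_eq_of_mem (inv_mem hB) _ hy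
      have e : (t * s * t⁻¹)⁻¹ * (t * s * t⁻¹ * y * (t * s * t⁻¹)⁻¹) * (t * s * t⁻¹)⁻¹⁻¹ = y := by group
      rw [e] at this
      exact this
  refine ⟨_, conj_target hnorm, Or.inr (Or.inl ?_)⟩
  haveI : Fact (Nat.Prime 3) := ⟨Nat.prime_three⟩
  have hcard : Nat.card (U.map (MulAut.conj t⁻¹).toMonoidHom : Subgroup G) = (q) ^ 3 := by
    rw [card_map_conj, R.cardU]
  have hU : IsPGroup 3 (U.map (MulAut.conj t⁻¹).toMonoidHom : Subgroup G) := by
    apply IsPGroup.of_card (n := (2 * m + 1) * 3)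
    rw [hcard, pow_mul]
  have hidx : ¬ 3 ∣ (U.map (MulAut.conj t⁻¹).toMonoidHom : Subgroup G).index := by
    have h1 := Subgroup.card_mul_index (U.map (MulAut.conj t⁻¹).toMonoidHom : Subgroup G)
    rw [hcard, card_G R] at h1
    have h2 : (U.map (MulAut.conj t⁻¹).toMonoidHom : Subgroup G).index = (q - 1) * ((q + 1) * (q ^ 2 + 1 - q)) := by
      apply Nat.eq_of_mul_eq_mul_left (show 0 < q ^ 3 by positivity)
      rw [h1]
      ring
    rw [h2]
    intro h3
    rcases (Nat.Prime.dvd_mul Nat.prime_three).mp h3 with h4 | h4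
    · exact not_three_dvd_qm m h4
    · rcases (Nat.Prime.dvd_mul Nat.prime_three).mp h4 with h5 | h5
      · have := (q_facts m).2.2
        generalize q = r at *
        omega
      · exact (prime_D Nat.prime_three h5).2.1 rfl
  exact ⟨hU.toSylow hidx, (IsPGroup.toSylow_coe _ _).symm⟩

/-- The case of odd `p`. -/
theorem odd_case {P S : Subgroup G} {p : ℕ} (hSP : S ≤ Subgroup.normalizer (P : Set G))
    (hcomm : ∀ y ∈ P, ∀ z ∈ P, y * z = z * y) (hexp : ∀ y ∈ P, y ^ p = 1) (hp : p.Prime) (hp2 : p ≠ 2) (hP1 : P ≠ ⊥) :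
    ∃ A' : Subgroup G, S ≤ Subgroup.normalizer (A' : Set G) ∧ Tgt G m A' := by
  haveI : Fact p.Prime := ⟨hp⟩
  obtain ⟨x, hx, hx1⟩ : ∃ x : G, x ∈ P ∧ x ≠ 1 := by
    obtain ⟨x, h⟩ := (Subgroup.ne_bot_iff_exists_ne_one.mp hP1 : ∃ x : P, x ≠ 1)
    exact ⟨x.1, x.2, fun h' => h (Subtype.ext h')⟩
  have hord : orderOf x = p := orderOf_eq_prime (hexp x hx) hx1
  have h1p : 1 < p := hp.one_lt
  have h2p : 2 < p := by
    have := hp.two_le
    omega
  have case3 : p = 3 → ∃ A' : Subgroup G, S ≤ Subgroup.normalizer (A' : Set G) ∧ Tgt G m A' := by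
    rintro rfl
    exact three_case R hSP hcomm hexp hP1
  obtain ⟨g₁, g₂, hg₁, hg₂, hRR, hc₁, hc₂, hN₁, hN₂⟩ := orders_of_classes R
  rcases order_forward R x with h | h | h | h | h | h
  · rw [hord] at h
    apply case3
    have h6 : p ∣ 2 * 3 := h
    rcases (Nat.Prime.dvd_mul hp).mp h6 with h7 | h7
    · exact absurd ((Nat.prime_dvd_prime_iff_eq hp Nat.prime_two).mp h7) hp2
    · exact (Nat.prime_dvd_prime_iff_eq hp Nat.prime_three).mp h7
  · rw [hord] at h
    apply case3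
    have h6 : p ∣ 3 ^ 2 := h
    exact (Nat.prime_dvd_prime_iff_eq hp Nat.prime_three).mp (hp.dvd_of_dvd_pow h6)
  · -- the torus `H`
    rw [hord] at h
    obtain ⟨t, ht⟩ := case_H R (x := x) (by rwa [hord]) (by rwa [hord])
    have hn := local_step hSP hcomm hexp hp hx hx1 ht
      (fun y hy hoy => Cz_H R hy (sq_ne_of_order R hoy h2p))
    obtain ⟨A₁, hle, hcyc, hcard⟩ := exists_cyclic_half R
    refine ⟨A₁.map (MulAut.conj t⁻¹).toMonoidHom,
      conj_target (fun s hs => norm_le_of_cyclic R.cycH hle (hn s hs)), Or.inr (Or.inr ⟨cyc_map_conj hcyc _, Or.inl ?_⟩)⟩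
    rw [card_map_conj, hcard]
  · -- the subgroup `M`
    rw [hord] at h
    obtain ⟨k, hk1, hodd, hk2, hk4⟩ := k_facts m
    have hpk : p ∣ (q + 1) / 4 := by
      rw [hk2] at h
      rw [hk4]
      rcases (Nat.Prime.dvd_mul hp).mp h with h7 | h7
      · exact absurd ((Nat.prime_dvd_prime_iff_eq hp Nat.prime_two).mp h7) hp2
      · exact h7
    obtain ⟨t, ht⟩ := case_A R (x := x) (by rwa [hord]) (by rwa [hord])
    have hn := local_step (C := M) hSP hcomm hexp hp hx hx1 ((R.A_iff _).mp ht).1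
      (fun y hy hoy => XX_C R ⟨hy, sq_ne_of_order R hoy h2p⟩)
    refine ⟨A.map (MulAut.conj t⁻¹).toMonoidHom,
      conj_target (fun s hs => A_char R (hn s hs)), Or.inr (Or.inr ⟨cyc_map_conj R.A_cyc _, Or.inr (Or.inl ?_)⟩)⟩
    rw [card_map_conj, R.A_card]
  · rw [hord, ← hc₁] at h
    obtain ⟨t, ht⟩ := case_Y R (x := x) hRR (by rw [hc₁, hc₂]; exact c_coprime m)
      (by rw [hc₁, ← c_prod]; exact dvd_mul_right _ _) (by rwa [hord]) (by rwa [hord])
    have hn := local_step hSP hcomm hexp hp hx hx1 ht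
      (fun y hy hoy => Cz_eq R hg₁ hy (ne_of_order R hoy h1p))
    refine ⟨(Cz g₁).map (MulAut.conj t⁻¹).toMonoidHom,
      conj_target hn, Or.inr (Or.inr ⟨cyc_map_conj (RR_cyc R hg₁) _, Or.inr (Or.inr (Or.inl ?_))⟩)⟩
    rw [card_map_conj, hc₁]
  · rw [hord, ← hc₂] at h
    obtain ⟨t, ht⟩ := case_Y R (g := g₂) (g' := g₁) (x := x) (by rw [hRR, Set.union_comm]) (by rw [hc₁, hc₂]; exact (c_coprime m).symm)
      (by rw [hc₂, ← c_prod]; exact dvd_mul_left _ _) (by rwa [hord]) (by rwa [hord])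
    have hn := local_step hSP hcomm hexp hp hx hx1 ht
      (fun y hy hoy => Cz_eq R hg₂ hy (ne_of_order R hoy h1p))
    refine ⟨(Cz g₂).map (MulAut.conj t⁻¹).toMonoidHom,
      conj_target hn, Or.inr (Or.inr ⟨cyc_map_conj (RR_cyc R hg₂) _, Or.inr (Or.inr (Or.inr ?_))⟩)⟩
    rw [card_map_conj, hc₂]

/-- The order of `G`, in terms of the power of two. -/
lemma card_two : ∃ k, Nat.card G = 8 * k ∧ Odd k := by
  obtain ⟨k, hk, hodd, hk2, hk4⟩ := k_facts m
  obtain ⟨k₁, h1, hodd₁, h1'⟩ := k1_facts m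
  have hq3 : (q ^ 2 + 1 - q) % 2 = 1 := by
    have h8 := (q_facts m).1
    have hq : q ≤ q ^ 2 := by nlinarith [Nat.one_le_pow (2 * m + 1) 3 (by norm_num)]
    have e : q ^ 2 + 1 - q = q * (q - 1) + 1 := by
      have hq1 : 1 ≤ q := Nat.one_le_pow _ _ (by norm_num)
      generalize q = r at *
      obtain ⟨d, rfl⟩ : ∃ d, r = d + 1 := ⟨r - 1, by omega⟩
      simp only [Nat.add_sub_cancel]
      have : (d + 1) ^ 2 + 1 = (d + 1) * d + 1 + (d + 1) := by ring
      omega
    rw [e, h1, show q * (2 * k₁) + 1 = 2 * (q * k₁) + 1 by ring]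
    omega
  refine ⟨q ^ 3 * k₁ * (k * (q ^ 2 + 1 - q)), ?_, ?_⟩
  · rw [card_G R, hk, h1]
    ring
  · apply Odd.mul
    · apply Odd.mul
      · apply Odd.pow
        rw [Nat.odd_iff]
        have := (q_facts m).1
        generalize q = r at *
        omega
      · exact hodd₁
    · apply Odd.mul hodd
      rw [Nat.odd_iff]
      exact hq3

/-- A subgroup `Q` of order `8` with all elements involutions. -/
lemma eight_case {Q S : Subgroup G} (hc : Nat.card Q = 8) (hSQ : S ≤ Subgroup.normalizer (Q : Set G)) :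
    ∃ A' : Subgroup G, S ≤ Subgroup.normalizer (A' : Set G) ∧ Tgt G m A' := by
  haveI : Fact (Nat.Prime 2) := ⟨Nat.prime_two⟩
  obtain ⟨k, hk, hodd⟩ := card_two R
  have hU : IsPGroup 2 Q := by
    apply IsPGroup.of_card (n := 3)
    rw [hc]
    norm_num
  have hidx : ¬ 2 ∣ Q.index := by
    have h1 := Subgroup.card_mul_index Q
    rw [hc, hk] at h1
    have h2 : Q.index = k := by omega
    rw [h2]
    exact hodd.not_two_dvd_nat
  exact ⟨Q, hSQ, Or.inl ⟨hU.toSylow hidx, (IsPGroup.toSylow_coe _ _).symm⟩⟩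

omit R [Finite G] in
/-- The case that the `2`-core is small. -/
lemma small_case [Finite G] {S : Subgroup G} {m : ℕ} {Q0 : Subgroup S} (hP : IsPGroup 2 Q0)
    (hcent : Subgroup.centralizer (Q0 : Set S) ≤ Q0) (h : ∀ g : S, ∀ u ∈ Q0, u * g = g * u) :
    ∃ A' : Subgroup G, S ≤ Subgroup.normalizer (A' : Set G) ∧ Tgt G m A' := by
  haveI : Fact (Nat.Prime 2) := ⟨Nat.prime_two⟩
  have htop : ∀ g : S, g ∈ Q0 := fun g => hcent (Subgroup.mem_centralizer_iff.mpr (fun u hu => h g u hu))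
  have hP2 : IsPGroup 2 S := by
    intro g
    obtain ⟨j, hj⟩ := hP ⟨g, htop g⟩
    exact ⟨j, by
      have := congrArg (fun w : Q0 => (w : S)) hj
      simpa using this⟩
  obtain ⟨P, hP3⟩ := hP2.exists_le_sylow
  exact ⟨P, hP3.trans Subgroup.le_normalizer, Or.inl ⟨P, rfl⟩⟩

/-- **Solvable subgroups**. -/
theorem solvable_main
    (hV : ∀ Q : Subgroup G, Nat.card Q = 4 → (∀ x ∈ Q, x * x = 1) → ∃ A' : Subgroup G, IsCyclic A' ∧
      Nat.card A' = (q + 1) / 4 ∧ Subgroup.normalizer (Q : Set G) ≤ Subgroup.normalizer (A' : Set G))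
    (S : Subgroup G) (hS : Group.IsSolvable S) :
    ∃ A' : Subgroup G, S ≤ Subgroup.normalizer (A' : Set G) ∧ Tgt G m A' := by
  classical
  haveI : Fact (Nat.Prime 2) := ⟨Nat.prime_two⟩
  have hconjmap : ∀ (N : Subgroup S), N.Normal → S ≤ Subgroup.normalizer ((N.map S.subtype : Subgroup G) : Set G) := by
    intro N hN s hs
    rw [Subgroup.mem_normalizer_iff]
    intro y
    constructor
    · rintro ⟨z, hz, rfl⟩
      exact ⟨(⟨s, hs⟩ : S) * z * (⟨s, hs⟩ : S)⁻¹, hN.conj_mem z hz _, rfl⟩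
    · rintro ⟨z, hz, hzy⟩
      refine ⟨(⟨s, hs⟩ : S)⁻¹ * z * (⟨s, hs⟩ : S), ?_, ?_⟩
      · have := hN.conj_mem z hz (⟨s, hs⟩ : S)⁻¹
        simpa using this
      · have e : (z : G) = s * y * s⁻¹ := hzy
        show s⁻¹ * (z : G) * s = y
        rw [e]
        group
  by_cases hcore : Cfsg.pPrimeCore 2 S = ⊥
  · -- the case `O_{2'}(S) = 1`
    set Q0 := Cfsg.pCore 2 S with hQ0
    have hP : IsPGroup 2 Q0 := Cfsg.Agent.Lib.Core.Basic.pCore_isPGroup
    have hcent := Cfsg.Agent.Lib.Solvable.Fitting.centralizer_pCore_le (G := S) 2 hcore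
    have hnormal : Q0.Normal := inferInstance
    have hSQ := hconjmap Q0 hnormal
    have hcQ : Nat.card (Q0.map S.subtype : Subgroup G) = Nat.card Q0 :=
      Nat.card_congr (Q0.equivMapOfInjective _ S.subtype_injective).symm.toEquiv
    have hsq : ∀ x ∈ (Q0.map S.subtype : Subgroup G), x * x = 1 := by
      rintro _ ⟨z, hz, rfl⟩
      obtain ⟨j, hj⟩ := hP ⟨z, hz⟩
      have hj' : ((z : G)) ^ 2 ^ j = 1 := by
        have := congrArg (fun w : Q0 => ((w : S) : G)) hj
        simpa using this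
      exact two_elt R j hj'
    -- the order of `Q0`
    obtain ⟨j, hj⟩ := IsPGroup.iff_card.mp hP
    have hj3 : j ≤ 3 := by
      by_contra hj3
      have hj4 : 4 ≤ j := by omega
      have h16 : 2 ^ 4 ∣ Nat.card (Q0.map S.subtype : Subgroup G) := by
        rw [hcQ, hj]
        exact pow_dvd_pow 2 hj4
      have h17 : 2 ^ 4 ∣ Nat.card G := h16.trans (Subgroup.card_subgroup_dvd_card _)
      obtain ⟨k, hk, hodd⟩ := card_two R
      rw [hk] at h17
      have h18 : 2 ∣ k := by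
        have : 2 * 8 ∣ 8 * k := by simpa using h17
        rw [mul_comm 2 8] at this
        exact Nat.dvd_of_mul_dvd_mul_left (by norm_num) this
      exact hodd.not_two_dvd_nat h18
    interval_cases j
    · -- trivial
      have hbot : Q0 = ⊥ := Subgroup.eq_bot_of_card_eq _ (by simpa using hj)
      apply small_case hP hcent
      intro g u hu
      rw [hbot, Subgroup.mem_bot] at hu
      rw [hu]
      simp
    · -- order two
      apply small_case hP hcent
      intro g u hu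
      by_cases hu1 : u = 1
      · rw [hu1]
        simp
      have h2 : Nat.card Q0 = 2 := by simpa using hj
      obtain ⟨w, hw, hw'⟩ := (Nat.card_eq_two_iff' (1 : Q0)).mp h2
      have h3 : g * u * g⁻¹ ∈ Q0 := hnormal.conj_mem u hu g
      have e1 : (⟨u, hu⟩ : Q0) = w := hw' _ (fun h => hu1 (congrArg Subtype.val h))
      have e2 : (⟨g * u * g⁻¹, h3⟩ : Q0) = w := hw' _ (fun h => hu1 (by
        have h4 : g * u * g⁻¹ = 1 := congrArg Subtype.val h
        have h5 : u = g⁻¹ * (g * u * g⁻¹) * g := by group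
        rw [h5, h4]
        group))
      have e3 : g * u * g⁻¹ = u := congrArg Subtype.val (e2.trans e1.symm)
      calc u * g = (g * u * g⁻¹) * g := by rw [e3]
        _ = g * u := by group
    · -- order `4`
      obtain ⟨A', hcyc, hcard, hN⟩ := hV _ (by rw [hcQ, hj]; norm_num) hsq
      exact ⟨A', hSQ.trans hN, Or.inr (Or.inr ⟨hcyc, Or.inr (Or.inl hcard)⟩)⟩
    · exact eight_case R (by rw [hcQ, hj]; norm_num) hSQ
  · -- the case `O_{2'}(S) ≠ 1`
    obtain ⟨N, hN, hle⟩ := exists_isMinNormal_le (Cfsg.pPrimeCore 2 S) inferInstance hcore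
    obtain ⟨p, hp, hexp⟩ := isMinNormal_exponent hN
    have hcomm := isMinNormal_comm hN
    have hN1 := hN.2.1
    obtain ⟨x, hx⟩ : ∃ x : N, x ≠ 1 := Subgroup.ne_bot_iff_exists_ne_one.mp hN1
    have hx1 : (x : S) ≠ 1 := fun h => hx (Subtype.ext h)
    have hp2 : p ≠ 2 := by
      rintro rfl
      have h2 : orderOf (x : S) = 2 := orderOf_eq_prime (hexp _ x.2) hx1
      have hco := Cfsg.Agent.Lib.Core.Basic.orderOf_coprime_of_mem_pPrimeCore (hle x.2)
      rw [h2] at hco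
      norm_num at hco
    refine odd_case R (P := N.map S.subtype) (hconjmap N hN.1) ?_ ?_ hp hp2 ?_
    · rintro _ ⟨y, hy, rfl⟩ _ ⟨z, hz, rfl⟩
      exact congrArg Subtype.val (hcomm y hy z hz)
    · rintro _ ⟨y, hy, rfl⟩
      have := congrArg Subtype.val (hexp y hy)
      simpa using this
    · intro h
      apply hx1
      have h2 : (x : S).1 ∈ (N.map S.subtype : Subgroup G) := ⟨x, x.2, rfl⟩
      rw [h, Subgroup.mem_bot] at h2
      exact Subtype.ext h2

end Cfsg.Agent.Lib.ReeG2.Ab8
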