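import Cfsg.Agent.Lib.ReeG2.Con6
import Cfsg.Agent.Lib.ReeG2.Ab8

/-!
# Four-subgroups of the small Ree group, and solvable subgroups
-/

set_option autoImplicit false
set_option linter.unusedTactic false
set_option linter.unreachableTactic false
set_option linter.unusedSectionVars false
set_option linter.unusedVariables false
set_option linter.ambiguousOpen false
set_option linter.dupNamespace false
set_option maxHeartbeats 2000000

namespace Cfsg.Agent.Lib.ReeG2.Con7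

open scoped MatrixGroups Matrix
open Cfsg Lie ChevalleyDatum
open Cfsg.Agent.Lib.Chev
open Tables Tables2 Tables3 Raise Basic AxBasic Torus Products Products2 Mono1 Mono2 Mono3 Bn ChevSimple
open Cfsg.Agent.Lib.Twisted.Fact Cfsg.Agent.Lib.Twisted.Bruhat Cfsg.Agent.Lib.Twisted.Tw
open Cfsg.Agent.Lib.Twisted.Struct Cfsg.Agent.Lib.Twisted.Check Cfsg.Agent.Lib.Twisted.Ortho
open Cfsg.Agent.Lib.ReeG2.Blocks Cfsg.Agent.Lib.ReeG2.Tw Cfsg.Agent.Lib.ReeG2.Blk7 Cfsg.Agent.Lib.ReeG2.Unip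
open Cfsg.Agent.Lib.ReeG2.RTD Cfsg.Agent.Lib.ReeG2.H1 Cfsg.Agent.Lib.ReeG2.Rank1 Cfsg.Agent.Lib.ReeG2.Str
open Cfsg.Agent.Lib.ReeG2.Fini Cfsg.Agent.Lib.ReeG2.Fini2 Cfsg.Agent.Lib.ReeG2.L Cfsg.Agent.Lib.ReeG2.Rank1b
open Cfsg.Agent.Lib.ReeG2.L2 Cfsg.Agent.Lib.ReeG2.L3 Cfsg.Agent.Lib.ReeG2.E8 Cfsg.Agent.Lib.ReeG2.L4 Cfsg.Agent.Lib.ReeG2.L5
open Cfsg.Agent.Lib.ReeG2.T Cfsg.Agent.Lib.ReeG2.Con1 Cfsg.Agent.Lib.ReeG2.Con2 Cfsg.Agent.Lib.ReeG2.Con3 Cfsg.Agent.Lib.ReeG2.Con4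
open Cfsg.Agent.Lib.ReeG2.Ab1 Cfsg.Agent.Lib.ReeG2.Ab2 Cfsg.Agent.Lib.ReeG2.Ab3 Cfsg.Agent.Lib.ReeG2.Ab4 Cfsg.Agent.Lib.ReeG2.Ab5
open Cfsg.Agent.Lib.ReeG2.Ab8
open Cfsg.Agent.Lib.Chev.SL2 (upM loM)

section E

/-- The linear map of the element of order seven. -/
def Lm (p : Bool × Bool × Bool) : Bool × Bool × Bool :=
  (xor p.2.1 p.2.2, xor (xor p.1 p.2.1) p.2.2, xor p.1 p.2.2)

/-- Addition. -/
def addB (p p' : Bool × Bool × Bool) : Bool × Bool × Bool := (xor p.1 p'.1, xor p.2.1 p'.2.1, xor p.2.2 p'.2.2)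

/-- Membership in a line. -/
def onLine (z x y : Bool × Bool × Bool) : Bool := z == x || z == y || z == addB x y

theorem lines0 : ∀ x y : Bool × Bool × Bool, x ≠ (false, false, false) → y ≠ (false, false, false) → x ≠ y →
    ∃ n : Fin 7, onLine (Lm^[n.1] (true, false, false)) x y = true ∧ onLine (Lm^[n.1] (false, true, false)) x y = true := by
  decide +kernel

theorem lines : ∀ x y : Bool × Bool × Bool, x ≠ (false, false, false) → y ≠ (false, false, false) → x ≠ y →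
    ∃ n : Fin 7, (Lm^[n.1] (true, false, false) = x ∨ Lm^[n.1] (true, false, false) = y ∨ Lm^[n.1] (true, false, false) = addB x y) ∧
      (Lm^[n.1] (false, true, false) = x ∨ Lm^[n.1] (false, true, false) = y ∨ Lm^[n.1] (false, true, false) = addB x y) := by
  intro x y hx hy hxy
  obtain ⟨n, h1, h2⟩ := lines0 x y hx hy hxy
  refine ⟨n, ?_, ?_⟩
  · simpa [onLine, or_assoc] using h1
  · simpa [onLine, or_assoc] using h2

variable {G : Type*} [Group G] {a b c s : G}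

/-- Coordinates. -/
def vv (a b c : G) (p : Bool × Bool × Bool) : G := pw a p.1 * pw b p.2.1 * pw c p.2.2

lemma vv_conj (S : Cfsg.Agent.Lib.ReeG2.E8.IsE8 a b c) (h1 : s * a = b * c * s) (h2 : s * b = a * b * s) (h3 : s * c = a * b * c * s)
    (p : Bool × Bool × Bool) : s * vv a b c p * s⁻¹ = vv a b c (Lm p) := by
  have ha : s * a * s⁻¹ = pw a false * pw b true * pw c true := by
    rw [h1]
    simp
  have hb : s * b * s⁻¹ = pw a true * pw b true * pw c false := by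
    rw [h2]
    simp
  have hc : s * c * s⁻¹ = pw a true * pw b true * pw c true := by
    rw [h3]
    simp
  have ha' : ∀ i, s * pw a i * s⁻¹ = pw a false * pw b i * pw c i := by
    intro i
    cases i
    · simp
    · simpa using ha
  have hb' : ∀ i, s * pw b i * s⁻¹ = pw a i * pw b i * pw c false := by
    intro i
    cases i
    · simp
    · simpa using hb
  have hc' : ∀ i, s * pw c i * s⁻¹ = pw a i * pw b i * pw c i := by
    intro i
    cases i
    · simp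
    · simpa using hc
  obtain ⟨i, j, k⟩ := p
  have e : s * (pw a i * pw b j * pw c k) * s⁻¹ = (s * pw a i * s⁻¹) * (s * pw b j * s⁻¹) * (s * pw c k * s⁻¹) := by group
  show s * (pw a i * pw b j * pw c k) * s⁻¹ = pw a (xor j k) * pw b (xor (xor i j) k) * pw c (xor i k)
  rw [e, ha', hb', hc', S.prod_mul, S.prod_mul]
  simp

lemma vv_pow (S : Cfsg.Agent.Lib.ReeG2.E8.IsE8 a b c) (h1 : s * a = b * c * s) (h2 : s * b = a * b * s) (h3 : s * c = a * b * c * s)
    (n : ℕ) (p : Bool × Bool × Bool) : s ^ n * vv a b c p * (s ^ n)⁻¹ = vv a b c (Lm^[n] p) := by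
  induction n generalizing p with
  | zero => simp
  | succ n ih =>
    rw [Function.iterate_succ_apply, ← ih (Lm p), ← vv_conj S h1 h2 h3, pow_succ]
    group

lemma vv_add (S : Cfsg.Agent.Lib.ReeG2.E8.IsE8 a b c) (p p' : Bool × Bool × Bool) : vv a b c p * vv a b c p' = vv a b c (addB p p') :=
  S.prod_mul _ _ _ _ _ _

/-- All subgroups of order four in `E` are conjugate, under the element of order seven, to the one
generated by `a` and `b`. -/
theorem four_step (S : Cfsg.Agent.Lib.ReeG2.E8.IsE8 a b c) (h1 : s * a = b * c * s) (h2 : s * b = a * b * s) (h3 : s * c = a * b * c * s)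
    [Finite G] {Q : Subgroup G} (hQ : Q ≤ EE a b c) (hc : Nat.card Q = 4) :
    ∃ t : G, t * a * t⁻¹ ∈ Q ∧ t * b * t⁻¹ ∈ Q := by
  have hn : ((Q : Set G) \ {1}).ncard = 3 := by
    rw [Set.ncard_diff_singleton_of_mem (one_mem Q), ← Nat.card_coe_set_eq]
    show Nat.card Q - 1 = 3
    rw [hc]
  obtain ⟨x, ⟨hxQ, hx1⟩, -⟩ := Set.exists_ne_of_one_lt_ncard (s := (Q : Set G) \ {1}) (by rw [hn]; norm_num) (1 : G)
  obtain ⟨y, ⟨hyQ, hy1⟩, hyx⟩ := Set.exists_ne_of_one_lt_ncard (s := (Q : Set G) \ {1}) (by rw [hn]; norm_num) x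
  obtain ⟨i, j, k, rfl⟩ := S.mem_iff.mp (hQ hxQ)
  obtain ⟨i', j', k', rfl⟩ := S.mem_iff.mp (hQ hyQ)
  have hvx : vv a b c (i, j, k) ∈ Q := hxQ
  have hvy : vv a b c (i', j', k') ∈ Q := hyQ
  have hvxy : vv a b c (addB (i, j, k) (i', j', k')) ∈ Q := by
    rw [← vv_add S]
    exact mul_mem hvx hvy
  have hmem : ∀ z, (z = (i, j, k) ∨ z = (i', j', k') ∨ z = addB (i, j, k) (i', j', k')) → vv a b c z ∈ Q := by
    rintro z (rfl | rfl | rfl)
    · exact hvx
    · exact hvy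
    · exact hvxy
  obtain ⟨n, hn1, hn2⟩ := lines (i, j, k) (i', j', k')
    (fun h => hx1 (by
      show pw a i * pw b j * pw c k = 1
      have h' : i = false ∧ j = false ∧ k = false := by simpa using h
      rw [h'.1, h'.2.1, h'.2.2]
      simp))
    (fun h => hy1 (by
      show pw a i' * pw b j' * pw c k' = 1
      have h' : i' = false ∧ j' = false ∧ k' = false := by simpa using h
      rw [h'.1, h'.2.1, h'.2.2]
      simp))
    (fun h => hyx (by
      have h' : i = i' ∧ j = j' ∧ k = k' := by simpa using h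
      rw [h'.1, h'.2.1, h'.2.2]))
  refine ⟨s ^ n.1, ?_, ?_⟩
  · have e : a = vv a b c (true, false, false) := by simp [vv]
    have h4 := hmem _ hn1
    rw [← vv_pow S h1 h2 h3, ← e] at h4
    exact h4
  · have e : b = vv a b c (false, true, false) := by simp [vv]
    have h4 := hmem _ hn2
    rw [← vv_pow S h1 h2 h3, ← e] at h4
    exact h4

end E

section Main

variable {F : Type*} [Field F] [Fintype F] [CharP F 3] (ax : Ax chevG2 F)
variable (f : F ≃+* F) {e : ℕ} (hf : ∀ t, f t = t ^ e) (hff : ∀ t, f (f t) ^ 3 = t)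

include ax hf hff

/-- Every subgroup of order four with all elements involutions is conjugate to `⟨a, b⟩`. -/
theorem four_conj {k : ℕ} (hcard : Nat.card ↥(twistedG2 F e) = 8 * k) (hk : Odd k) {Q : Subgroup ↥(twistedG2 F e)}
    (hc : Nat.card Q = 4) :
    ∃ t : ↥(twistedG2 F e), t * aG ax f hf hff * t⁻¹ ∈ Q ∧ t * LL ax f hf hff iM * t⁻¹ ∈ Q := by
  have S := isE8 ax f hf hff
  haveI : Fact (Nat.Prime 2) := ⟨Nat.prime_two⟩
  have hidx : ¬ 2 ∣ (EE (aG ax f hf hff) (LL ax f hf hff iM) (LL ax f hf hff jM)).index := by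
    have h1 := Subgroup.card_mul_index (EE (aG ax f hf hff) (LL ax f hf hff iM) (LL ax f hf hff jM))
    rw [S.card, hcard] at h1
    have h2 : (EE (aG ax f hf hff) (LL ax f hf hff iM) (LL ax f hf hff jM)).index = k := by omega
    rw [h2]
    exact hk.not_two_dvd_nat
  have hP : IsPGroup 2 Q := by
    apply IsPGroup.of_card (n := 2)
    rw [hc]
    norm_num
  obtain ⟨r, hr⟩ := Cfsg.Agent.Lib.ReeG2.GL7.exists_conj_le _ hidx _ hP
  have hle : Q.map (MulAut.conj r⁻¹).toMonoidHom ≤ EE (aG ax f hf hff) (LL ax f hf hff iM) (LL ax f hf hff jM) := by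
    rintro _ ⟨x, hx, rfl⟩
    exact hr x hx
  obtain ⟨t, ht1, ht2⟩ := four_step S (rel_s_a ax f hf hff) (rel_s_b ax f hf hff) (rel_s_c ax f hf hff) hle
    (by rw [card_map_conj, hc])
  refine ⟨r * t, ?_, ?_⟩
  · obtain ⟨x, hx, hxe⟩ := ht1
    have hxe' : r⁻¹ * x * r = t * aG ax f hf hff * t⁻¹ := by
      rw [← hxe]
      simp [MulAut.conj_apply]
    have e2 : r * t * aG ax f hf hff * (r * t)⁻¹ = x := by
      calc r * t * aG ax f hf hff * (r * t)⁻¹ = r * (t * aG ax f hf hff * t⁻¹) * r⁻¹ := by group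
        _ = r * (r⁻¹ * x * r) * r⁻¹ := by rw [hxe']
        _ = x := by group
    rw [e2]
    exact hx
  · obtain ⟨x, hx, hxe⟩ := ht2
    have hxe' : r⁻¹ * x * r = t * LL ax f hf hff iM * t⁻¹ := by
      rw [← hxe]
      simp [MulAut.conj_apply]
    have e2 : r * t * LL ax f hf hff iM * (r * t)⁻¹ = x := by
      calc r * t * LL ax f hf hff iM * (r * t)⁻¹ = r * (t * LL ax f hf hff iM * t⁻¹) * r⁻¹ := by group
        _ = r * (r⁻¹ * x * r) * r⁻¹ := by rw [hxe']
        _ = x := by group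
    rw [e2]
    exact hx

end Main

variable {K : Type*} [Field K] [Fintype K] {m : ℕ}

/-- The normaliser of a subgroup of order four. -/
theorem hV_concrete (hm : 1 ≤ m) (hK : Fintype.card K = 3 ^ (2 * m + 1)) [CharP K 3] (f : K ≃+* K) (hf : ∀ t, f t = t ^ (3 ^ m))
    (hff : ∀ t, f (f t) ^ 3 = t) (ax : Ax chevG2 K) (hns : ∀ l : Kˣ, (∃ ν : Kˣ, l = ν ^ 2) ∨ ∃ ν : Kˣ, l = -ν ^ 2) {A : Subgroup ↥(twistedG2 K (3 ^ m))}
    (R : Rd (UG K (3 ^ m)) (HG K (3 ^ m)) (MM ax f hf hff) A (nG1 ax f hf) (aG ax f hf hff) m)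
    (Q : Subgroup ↥(twistedG2 K (3 ^ m))) (hc : Nat.card Q = 4) :
    ∃ A' : Subgroup ↥(twistedG2 K (3 ^ m)), IsCyclic A' ∧
      Nat.card A' = (3 ^ (2 * m + 1) + 1) / 4 ∧ Subgroup.normalizer (Q : Set ↥(twistedG2 K (3 ^ m))) ≤ Subgroup.normalizer (A' : Set ↥(twistedG2 K (3 ^ m))) := by
  haveI : Finite ↥(twistedG2 K (3 ^ m)) := inferInstance
  obtain ⟨k', hk', hodd'⟩ := card_eq_eight_mul hK
  have hneg := neg_one_not_sq hK
  obtain ⟨t, ht1, ht2⟩ := four_conj ax f hf hff hk' hodd' hc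
  set a := aG ax f hf hff with ha
  set b := LL ax f hf hff iM with hb
  -- the image of the four-group
  have hsub : (fun x => t * x * t⁻¹) '' {x : ↥(twistedG2 K (3 ^ m)) | x ∈ MM ax f hf hff ∧ x * x = 1} ⊆ (Q : Set _) := by
    rintro _ ⟨x, hx, rfl⟩
    rcases (mem_V ax f hf hff).mp hx with rfl | rfl | rfl | rfl
    · simp [one_mem]
    · exact ht1
    · exact ht2
    · have e2 : t * (a * b) * t⁻¹ = (t * a * t⁻¹) * (t * b * t⁻¹) := by group
      show t * (a * b) * t⁻¹ ∈ Q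
      rw [e2]
      exact mul_mem ht1 ht2
  have hinj : Function.Injective (fun x : ↥(twistedG2 K (3 ^ m)) => t * x * t⁻¹) := by
    intro x y h
    simpa using h
  have hcardQ : (Q : Set ↥(twistedG2 K (3 ^ m))).ncard = 4 := by
    rw [← Nat.card_coe_set_eq]
    exact hc
  have heq := Set.eq_of_subset_of_ncard_le hsub (by
    rw [hcardQ, Set.ncard_image_of_injective _ hinj, card_V ax f hf hff]) (Set.toFinite _)
  have hQM : ∀ y ∈ Q, t⁻¹ * y * t ∈ MM ax f hf hff := by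
    intro y hy
    have h2 : y ∈ (fun x => t * x * t⁻¹) '' {x : ↥(twistedG2 K (3 ^ m)) | x ∈ MM ax f hf hff ∧ x * x = 1} := by
      rw [heq]
      exact hy
    obtain ⟨x, hx, rfl⟩ := h2
    have e2 : t⁻¹ * (t * x * t⁻¹) * t = x := by group
    rw [e2]
    exact hx.1
  refine ⟨A.map (MulAut.conj t).toMonoidHom, cyc_map_conj R.A_cyc _, by rw [card_map_conj, R.A_card], ?_⟩
  have hwex : ∃ w ∈ A, w ≠ 1 := by
    have h1 : 1 < Nat.card A := by
      rw [R.A_card]
      obtain ⟨k, hk1, hodd, hk2, hk4⟩ := k_facts m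
      rw [hk4]
      have := q_ge m hm
      omega
    haveI : Nontrivial A := Finite.one_lt_card_iff_nontrivial.mp h1
    obtain ⟨w, hw⟩ := exists_ne (1 : A)
    exact ⟨w, w.2, fun h => hw (Subtype.ext h)⟩
  obtain ⟨w, hwA, hw1⟩ := hwex
  have hwM := ((R.A_iff w).mp hwA).1
  have hodd : Odd (orderOf w) := by
    obtain ⟨k, hk1, hodd, hk2, hk4⟩ := k_facts m
    have := ((R.A_iff w).mp hwA).2
    rw [hk4] at this
    exact Odd.of_dvd_nat hodd (orderOf_dvd_of_pow_eq_one this)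
  have ht : ∀ s ∈ Subgroup.normalizer (Q : Set ↥(twistedG2 K (3 ^ m))), t⁻¹ * s * t⁻¹⁻¹ ∈ Subgroup.normalizer (A : Set ↥(twistedG2 K (3 ^ m))) := by
    intro x hx
    apply A_char R
    have hcomm : ∀ z : ↥(twistedG2 K (3 ^ m)), t * z * t⁻¹ ∈ Q →
        (t⁻¹ * x * t⁻¹⁻¹ * w * (t⁻¹ * x * t⁻¹⁻¹)⁻¹) * z = z * (t⁻¹ * x * t⁻¹⁻¹ * w * (t⁻¹ * x * t⁻¹⁻¹)⁻¹) := by
      intro z hz
      have h3 : x⁻¹ * (t * z * t⁻¹) * x ∈ Q := by
        have := (Subgroup.mem_normalizer_iff.mp (inv_mem hx) (t * z * t⁻¹)).mp hz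
        simpa using this
      have h4 := hQM _ h3
      have h5 := R.M_comm _ h4 _ hwM
      set X := t⁻¹ * x * t⁻¹⁻¹ with hX
      have e1 : t⁻¹ * (x⁻¹ * (t * z * t⁻¹) * x) * t = X⁻¹ * z * X := by
        rw [hX]
        group
      rw [e1] at h5
      calc X * w * X⁻¹ * z = X * (w * (X⁻¹ * z * X)) * X⁻¹ := by group
        _ = X * ((X⁻¹ * z * X) * w) * X⁻¹ := by rw [h5]
        _ = z * (X * w * X⁻¹) := by group
    exact mem_N_of_conj ax f hf hff hns hneg hwM hodd hw1 (hcomm _ ht1) (hcomm _ ht2)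
  have := conj_target (S := Subgroup.normalizer (Q : Set ↥(twistedG2 K (3 ^ m)))) (D := A) (t := t⁻¹) ht
  simpa using this

/-- **Solvable subgroups of the small Ree group**. -/
theorem solvable_concrete (hm : 1 ≤ m) (hK : Fintype.card K = 3 ^ (2 * m + 1)) (S : Subgroup ↥(twistedG2 K (3 ^ m)))
    (hS : Group.IsSolvable S) :
    ∃ A : Subgroup ↥(twistedG2 K (3 ^ m)), S ≤ Subgroup.normalizer (A : Set ↥(twistedG2 K (3 ^ m))) ∧ Tgt ↥(twistedG2 K (3 ^ m)) m A := by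
  obtain ⟨hc, f, hf, hff, ax, hns⟩ := exists_ctx hK
  haveI := hc
  haveI : Finite ↥(twistedG2 K (3 ^ m)) := inferInstance
  obtain ⟨A, R⟩ := Cfsg.Agent.Lib.ReeG2.Con6.Rd_concrete hm hK f hf hff ax hns
  exact solvable_main R (fun Q hQ _ => hV_concrete hm hK f hf hff ax hns R Q hQ) S hS

end Cfsg.Agent.Lib.ReeG2.Con7
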