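import Cfsg.Agent.Lib.ReeG2.Ab7
import Mathlib.LinearAlgebra.Eigenspace.Pi
import Mathlib.LinearAlgebra.Trace
import Mathlib.RepresentationTheory.Irreducible

/-!
# Abstract Ree-type groups: the minimal degree of a nontrivial representation
-/

set_option autoImplicit false
set_option linter.unusedSectionVars false
set_option linter.unusedVariables false
set_option linter.unusedTactic false
set_option linter.unreachableTactic false

namespace Cfsg.Agent.Lib.ReeG2.Deg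

open Module
open Cfsg.Agent.Lib.ReeG2.Rank1 Cfsg.Agent.Lib.ReeG2.Rank1.Sp Cfsg.Agent.Lib.ReeG2.Ab1 Cfsg.Agent.Lib.ReeG2.Ab2
  Cfsg.Agent.Lib.ReeG2.Ab3 Cfsg.Agent.Lib.ReeG2.Ab4 Cfsg.Agent.Lib.ReeG2.Ab5

variable {G : Type*} [Group G] [Finite G]
variable {V : Type*} [AddCommGroup V] [Module ℂ V] [FiniteDimensional ℂ V]

section Rep

variable (ρ : Representation ℂ G V)

/-- Common eigenvectors. -/
theorem exists_eigenvector (Y : Subgroup G) (hY : ∀ y ∈ Y, ∀ y' ∈ Y, y * y' = y' * y)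
    (C : Submodule ℂ V) (hC : ∀ y ∈ Y, ∀ w ∈ C, ρ y w ∈ C) (hC0 : C ≠ ⊥) :
    ∃ v ∈ C, v ≠ 0 ∧ ∃ μ : G → ℂ, ∀ y ∈ Y, ρ y v = μ y • v := by
  classical
  have key : ∀ s : Finset G, (∀ y ∈ s, y ∈ Y) → ∃ C' : Submodule ℂ V, C' ≤ C ∧ C' ≠ ⊥ ∧
      (∀ y ∈ Y, ∀ w ∈ C', ρ y w ∈ C') ∧ ∀ y ∈ s, ∃ c : ℂ, ∀ w ∈ C', ρ y w = c • w := by
    intro s
    induction s using Finset.induction_on with
    | empty => exact fun _ => ⟨C, le_rfl, hC0, hC, by simp⟩
    | insert y₀ s hy₀ ih =>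
      intro hs
      obtain ⟨C', hle, hne, hinv, hs'⟩ := ih (fun y hy => hs y (Finset.mem_insert_of_mem hy))
      have hy₀Y : y₀ ∈ Y := hs y₀ (Finset.mem_insert_self _ _)
      haveI : Nontrivial C' := Submodule.nontrivial_iff_ne_bot.mpr hne
      obtain ⟨c, hc⟩ := Module.End.exists_eigenvalue ((ρ y₀).restrict (hinv y₀ hy₀Y))
      obtain ⟨w₀, hw₀⟩ := hc.exists_hasEigenvector
      have hw₀' : ρ y₀ (w₀ : V) = c • (w₀ : V) := by
        have := congrArg Subtype.val hw₀.apply_eq_smul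
        simpa using this
      have hw₀0 : (w₀ : V) ≠ 0 := fun h => hw₀.2 (Subtype.ext h)
      have hker : ∀ w : V, w ∈ LinearMap.ker (ρ y₀ - c • (1 : V →ₗ[ℂ] V)) ↔ ρ y₀ w = c • w := by
        intro w
        simp only [LinearMap.mem_ker, LinearMap.sub_apply, LinearMap.smul_apply, Module.End.one_apply, sub_eq_zero]
      refine ⟨C' ⊓ LinearMap.ker (ρ y₀ - c • (1 : V →ₗ[ℂ] V)), inf_le_left.trans hle, ?_, ?_, ?_⟩
      · intro h
        apply hw₀0
        have : (w₀ : V) ∈ C' ⊓ LinearMap.ker (ρ y₀ - c • (1 : V →ₗ[ℂ] V)) := by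
          exact ⟨w₀.2, (hker _).mpr hw₀'⟩
        rw [h] at this
        simpa using this
      · intro y hy w hw
        refine ⟨hinv y hy w hw.1, ?_⟩
        have hw2 : ρ y₀ w = c • w := (hker w).mp hw.2
        apply (hker _).mpr
        have e : ρ y₀ (ρ y w) = ρ y (ρ y₀ w) := by
          rw [← Module.End.mul_apply, ← Module.End.mul_apply, ← map_mul, ← map_mul, hY y₀ hy₀Y y hy]
        rw [e, hw2, map_smul]
      · intro y hy
        rcases Finset.mem_insert.mp hy with rfl | hy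
        · exact ⟨c, fun w hw => (hker w).mp hw.2⟩
        · obtain ⟨c', hc'⟩ := hs' y hy
          exact ⟨c', fun w hw => hc' w hw.1⟩
  have hfin : (Y : Set G).Finite := Set.toFinite _
  obtain ⟨C', hle, hne, hinv, hs⟩ := key hfin.toFinset (fun y hy => by simpa using hy)
  obtain ⟨v, hv, hv0⟩ := Submodule.exists_mem_ne_zero_of_ne_bot hne
  have h : ∀ y : G, ∃ c : ℂ, y ∈ Y → ρ y v = c • v := by
    intro y
    by_cases hy : y ∈ Y
    · obtain ⟨c, hc⟩ := hs y (by simpa using hy)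
      exact ⟨c, fun _ => hc v hv⟩
    · exact ⟨0, fun h => absurd h hy⟩
  choose μ hμ using h
  exact ⟨v, hle hv, hv0, μ, fun y hy => hμ y hy⟩

/-- Eigenvectors with distinct characters are independent. -/
theorem indep_of_chars (Y : Subgroup G) (hY : ∀ y ∈ Y, ∀ y' ∈ Y, y * y' = y' * y) {ι : Type*}
    (μ : ι → G → ℂ) (v : ι → V) (hv : ∀ i, v i ≠ 0) (hμ : ∀ i, ∀ y ∈ Y, ρ y (v i) = μ i y • v i)
    (hinj : ∀ i j, (∀ y ∈ Y, μ i y = μ j y) → i = j) : LinearIndependent ℂ v := by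
  let f : Y → Module.End ℂ V := fun y => ρ y.1
  have hcomm : ∀ i j : Y, Commute (f i) (f j) := by
    intro i j
    show ρ i.1 * ρ j.1 = ρ j.1 * ρ i.1
    rw [← map_mul, ← map_mul, hY _ i.2 _ j.2]
  have hp : iSupIndep (fun χ : Y → ℂ => ⨅ i, (f i).maxGenEigenspace (χ i)) :=
    Module.End.independent_iInf_maxGenEigenspace_of_forall_mapsTo f
      (fun i j φ => Module.End.mapsTo_maxGenEigenspace_of_comm (hcomm j i) φ)
  let χ : ι → (Y → ℂ) := fun i y => μ i y.1
  have hχ : Function.Injective χ := by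
    intro i j e
    exact hinj i j (fun y hy => congrFun e ⟨y, hy⟩)
  have hp' := hp.comp hχ
  refine iSupIndep.linearIndependent _ hp' ?_ hv
  intro i
  simp only [Function.comp, Submodule.mem_iInf]
  intro y
  apply Module.End.mem_maxGenEigenspace _ _ _ |>.mpr
  refine ⟨1, ?_⟩
  rw [pow_one]
  simp only [LinearMap.sub_apply, LinearMap.smul_apply, Module.End.one_apply, sub_eq_zero]
  exact hμ i y.1 y.2

lemma rho_inj (g : G) : Function.Injective (ρ g) := by
  intro x y h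
  have h1 := congrArg (ρ g⁻¹) h
  simpa [← Module.End.mul_apply, ← map_mul] using h1

lemma rho_conj_eigen {Y : Subgroup G} {v : V} {μ : G → ℂ} (g : G) (hBN : ∀ y ∈ Y, g⁻¹ * y * g ∈ Y)
    (hμ : ∀ y ∈ Y, ρ y v = μ y • v) : ∀ y ∈ Y, ρ y (ρ g v) = μ (g⁻¹ * y * g) • ρ g v := by
  intro y hy
  have e : y * g = g * (g⁻¹ * y * g) := by group
  rw [← Module.End.mul_apply, ← map_mul, e, map_mul, Module.End.mul_apply, hμ _ (hBN y hy), map_smul]

/-- The orbit of a character gives independent vectors. -/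
theorem index_le_finrank (Bo Y : Subgroup G) (hY : ∀ y ∈ Y, ∀ y' ∈ Y, y * y' = y' * y)
    (hBN : ∀ g ∈ Bo, ∀ y ∈ Y, g⁻¹ * y * g ∈ Y) {v : V} (hv : v ≠ 0) {μ : G → ℂ} (hμ : ∀ y ∈ Y, ρ y v = μ y • v)
    (hst : ∀ g ∈ Bo, (∀ y ∈ Y, μ (g⁻¹ * y * g) = μ y) → g ∈ Y) :
    (Y.subgroupOf Bo).index ≤ finrank ℂ V := by
  classical
  letI : Fintype (Bo ⧸ Y.subgroupOf Bo) := Fintype.ofFinite _
  let gg : (Bo ⧸ Y.subgroupOf Bo) → Bo := Quotient.out
  have hinj : ∀ i j : Bo ⧸ Y.subgroupOf Bo, (∀ y ∈ Y, μ ((gg i : G)⁻¹ * y * (gg i : G)) = μ ((gg j : G)⁻¹ * y * (gg j : G))) → i = j := by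
    intro i j h
    have hgi : (QuotientGroup.mk (gg i) : Bo ⧸ Y.subgroupOf Bo) = i := QuotientGroup.out_eq' i
    have hgj : (QuotientGroup.mk (gg j) : Bo ⧸ Y.subgroupOf Bo) = j := QuotientGroup.out_eq' j
    rw [← hgi, ← hgj, QuotientGroup.eq, Subgroup.mem_subgroupOf]
    show (gg i : G)⁻¹ * (gg j : G) ∈ Y
    apply hst _ (mul_mem (inv_mem (gg i).2) (gg j).2)
    intro y hy
    have hy' : (gg i : G) * y * (gg i : G)⁻¹ ∈ Y := by
      have := hBN _ (inv_mem (gg i).2) y hy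
      simpa using this
    have h1 := h _ hy'
    have e1 : (gg i : G)⁻¹ * ((gg i : G) * y * (gg i : G)⁻¹) * (gg i : G) = y := by group
    have e2 : (gg j : G)⁻¹ * ((gg i : G) * y * (gg i : G)⁻¹) * (gg j : G) = ((gg i : G)⁻¹ * (gg j : G))⁻¹ * y * ((gg i : G)⁻¹ * (gg j : G)) := by group
    rw [e1, e2] at h1
    exact h1.symm
  have hind := indep_of_chars ρ Y hY (fun i g => μ ((gg i : G)⁻¹ * g * (gg i : G))) (fun i => ρ (gg i : G) v)
    (fun i h => hv (rho_inj ρ _ (by rw [h, map_zero])))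
    (fun i => rho_conj_eigen ρ _ (hBN _ (gg i).2) hμ) hinj
  have h3 := hind.fintype_card_le_finrank
  rw [← Nat.card_eq_fintype_card] at h3
  exact h3

/-- The same, with one more vector. -/
theorem index_succ_le_finrank (Bo Y : Subgroup G) (hY : ∀ y ∈ Y, ∀ y' ∈ Y, y * y' = y' * y)
    (hBN : ∀ g ∈ Bo, ∀ y ∈ Y, g⁻¹ * y * g ∈ Y) {v : V} (hv : v ≠ 0) {μ : G → ℂ} (hμ : ∀ y ∈ Y, ρ y v = μ y • v)
    (hst : ∀ g ∈ Bo, (∀ y ∈ Y, μ (g⁻¹ * y * g) = μ y) → g ∈ Y)
    {v₀ : V} (hv₀ : v₀ ≠ 0) {μ₀ : G → ℂ} (hμ₀ : ∀ y ∈ Y, ρ y v₀ = μ₀ y • v₀)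
    (hne : ∀ g ∈ Bo, ¬ ∀ y ∈ Y, μ (g⁻¹ * y * g) = μ₀ y) :
    (Y.subgroupOf Bo).index + 1 ≤ finrank ℂ V := by
  classical
  letI : Fintype (Bo ⧸ Y.subgroupOf Bo) := Fintype.ofFinite _
  let gg : (Bo ⧸ Y.subgroupOf Bo) → Bo := Quotient.out
  have hinj : ∀ i j : Bo ⧸ Y.subgroupOf Bo, (∀ y ∈ Y, μ ((gg i : G)⁻¹ * y * (gg i : G)) = μ ((gg j : G)⁻¹ * y * (gg j : G))) → i = j := by
    intro i j h
    have hgi : (QuotientGroup.mk (gg i) : Bo ⧸ Y.subgroupOf Bo) = i := QuotientGroup.out_eq' i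
    have hgj : (QuotientGroup.mk (gg j) : Bo ⧸ Y.subgroupOf Bo) = j := QuotientGroup.out_eq' j
    rw [← hgi, ← hgj, QuotientGroup.eq, Subgroup.mem_subgroupOf]
    show (gg i : G)⁻¹ * (gg j : G) ∈ Y
    apply hst _ (mul_mem (inv_mem (gg i).2) (gg j).2)
    intro y hy
    have hy' : (gg i : G) * y * (gg i : G)⁻¹ ∈ Y := by
      have := hBN _ (inv_mem (gg i).2) y hy
      simpa using this
    have h1 := h _ hy'
    have e1 : (gg i : G)⁻¹ * ((gg i : G) * y * (gg i : G)⁻¹) * (gg i : G) = y := by group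
    have e2 : (gg j : G)⁻¹ * ((gg i : G) * y * (gg i : G)⁻¹) * (gg j : G) = ((gg i : G)⁻¹ * (gg j : G))⁻¹ * y * ((gg i : G)⁻¹ * (gg j : G)) := by group
    rw [e1, e2] at h1
    exact h1.symm
  have hind := indep_of_chars ρ Y hY (ι := Option (Bo ⧸ Y.subgroupOf Bo))
    (fun i g => match i with
      | none => μ₀ g
      | some i => μ ((gg i : G)⁻¹ * g * (gg i : G)))
    (fun i => match i with
      | none => v₀
      | some i => ρ (gg i : G) v)
    (fun i => match i with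
      | none => hv₀
      | some i => fun h => hv (rho_inj ρ (gg i : G) (by
          have h' : ρ (gg i : G) v = 0 := h
          rw [h', map_zero])))
    (fun i => match i with
      | none => hμ₀
      | some i => rho_conj_eigen ρ _ (hBN _ (gg i).2) hμ)
    (fun i j => match i, j with
      | none, none => fun _ => rfl
      | some i, none => fun h => absurd h (hne _ (gg i).2)
      | none, some j => fun h => absurd (fun y hy => (h y hy).symm) (hne _ (gg j).2)
      | some i, some j => fun h => by rw [hinj i j h])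
  have h3 := hind.fintype_card_le_finrank
  rw [Fintype.card_option, ← Nat.card_eq_fintype_card] at h3
  exact h3

omit [Finite G] in
lemma trace_conj_eq (x g : G) : LinearMap.trace ℂ V (ρ (x * g * x⁻¹)) = LinearMap.trace ℂ V (ρ g) := by
  rw [map_mul ρ, map_mul ρ, LinearMap.trace_mul_comm, ← mul_assoc, ← map_mul ρ]
  simp

/-- A four-group on which the trace vanishes. -/
theorem four_dvd {t t' : G} (h1 : t * t = 1) (h2 : t' * t' = 1) (hc : t * t' = t' * t)
    (h3 : LinearMap.trace ℂ V (ρ t) = 0) (h4 : LinearMap.trace ℂ V (ρ t') = 0) (h5 : LinearMap.trace ℂ V (ρ (t * t')) = 0) :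
    4 ∣ finrank ℂ V := by
  set A := ρ t with hA
  set A' := ρ t' with hA'
  have hAA : A * A = 1 := by rw [hA, ← map_mul, h1, map_one]
  have hAA' : A' * A' = 1 := by rw [hA', ← map_mul, h2, map_one]
  have hcomm : A * A' = A' * A := by rw [hA, hA', ← map_mul, ← map_mul, hc]
  let E : Module.End ℂ V := (1 / 4 : ℂ) • (1 + A + A' + A * A')
  have hE : IsIdempotentElem E := by
    show E * E = E
    simp only [E, smul_mul_assoc, mul_smul_comm, smul_smul]
    have e : (1 + A + A' + A * A') * (1 + A + A' + A * A') = (4 : ℂ) • (1 + A + A' + A * A') := by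
      have e1 : (1 + A + A' + A * A') * (1 + A + A' + A * A') =
          1 + A + A' + A * A' + A * (1 + A + A' + A * A') + A' * (1 + A + A' + A * A') + A * A' * (1 + A + A' + A * A') := by
        noncomm_ring
      have e2 : A * (1 + A + A' + A * A') = 1 + A + A' + A * A' := by
        rw [mul_add, mul_add, mul_add, mul_one, hAA, ← mul_assoc, hAA, one_mul]
        abel
      have e3 : A' * (1 + A + A' + A * A') = 1 + A + A' + A * A' := by
        rw [mul_add, mul_add, mul_add, mul_one, hAA', ← hcomm, ← mul_assoc, ← hcomm, mul_assoc A A' A', hAA', mul_one]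
        abel
      rw [e1, mul_assoc A A', e3, e2]
      have e4 : (4 : ℂ) • (1 + A + A' + A * A') = (1 + A + A' + A * A') + (1 + A + A' + A * A') + (1 + A + A' + A * A') + (1 + A + A' + A * A') := by
        rw [show (4 : ℂ) = 1 + 1 + 1 + 1 by norm_num, add_smul, add_smul, add_smul, one_smul]
      rw [e4]
    rw [e, smul_smul]
    norm_num
  have hP := LinearMap.IsIdempotentElem.isProj_range _ hE
  have htr := hP.trace
  have e5 : LinearMap.trace ℂ V E = (1 / 4 : ℂ) * (finrank ℂ V : ℂ) := by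
    simp only [E, map_smul, map_add, smul_eq_mul]
    have e6 : LinearMap.trace ℂ V (A * A') = 0 := by
      rw [hA, hA', ← map_mul]
      exact h5
    rw [e6, h3, h4, LinearMap.trace_one]
    ring
  rw [e5] at htr
  refine ⟨finrank ℂ (LinearMap.range E), ?_⟩
  have : (finrank ℂ V : ℂ) = 4 * (finrank ℂ (LinearMap.range E) : ℂ) := by
    rw [← htr]
    ring
  exact_mod_cast this

end Rep

section Main

variable {U H M A : Subgroup G} {n a : G} {m : ℕ} (R : Rd U H M A n a m)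

local notation "q" => 3 ^ (2 * m + 1)

/-- The data of the subgroups `Z ≤ Y` of `U`. -/
structure ZY (U H Y Z : Subgroup G) (a : G) (m : ℕ) : Prop where
  ZY : Z ≤ Y
  YU : Y ≤ U
  Yc : ∀ y ∈ Y, ∀ y' ∈ Y, y * y' = y' * y
  Zc : ∀ z ∈ Z, ∀ u ∈ U, z * u = u * z
  YN : ∀ g ∈ B U H, ∀ y ∈ Y, g⁻¹ * y * g ∈ Y
  ZN : ∀ g ∈ B U H, ∀ z ∈ Z, g⁻¹ * z * g ∈ Z
  F4 : ∀ u ∈ U, u ∉ Y → ∀ z ∈ Z, ∃ y ∈ Y, z = (u * y * u⁻¹) * y⁻¹
  F5 : ∀ h ∈ H, h ≠ 1 → ∀ z ∈ Z, ∃ z' ∈ Z, z = (h * z' * h⁻¹) * z'⁻¹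
  Y3 : ∀ y ∈ Y, y ^ 3 = 1
  cardY : Nat.card Y = (3 ^ (2 * m + 1)) ^ 2
  Za : ∀ z ∈ Z, a * z * a = z⁻¹

variable {Y Z : Subgroup G}

include R

/-- The bound on the degree. -/
theorem deg_bound (D : ZY U H Y Z a m) (ρ : Representation ℂ G V) {z₀ : G} (hz₀ : z₀ ∈ Z) (hρ : ρ z₀ ≠ 1) :
    (3 ^ (2 * m + 1)) ^ 2 - 3 ^ (2 * m + 1) + 1 ≤ finrank ℂ V := by
  classical
  have S := R.S
  have hYB : Y ≤ B U H := D.YU.trans U_le_B
  have hZU : Z ≤ U := D.ZY.trans D.YU
  -- the index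
  have hidx : (Y.subgroupOf (B U H)).index = q * (q - 1) := by
    have h1 := Subgroup.card_mul_index (Y.subgroupOf (B U H))
    have h2 : Nat.card (Y.subgroupOf (B U H)) = q ^ 2 := by
      rw [← D.cardY]
      exact Nat.card_congr (Subgroup.subgroupOfEquivOfLe hYB).toEquiv
    rw [h2, S.card_B, R.cardU, R.cardH] at h1
    apply Nat.eq_of_mul_eq_mul_left (show 0 < q ^ 2 by positivity)
    rw [h1]
    ring
  -- a first eigenvector
  have hz3 : z₀ ^ 3 = 1 := D.Y3 _ (D.ZY hz₀)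
  have hCinv : ∀ y ∈ Y, ∀ w ∈ LinearMap.range (ρ z₀ - 1), ρ y w ∈ LinearMap.range (ρ z₀ - 1) := by
    rintro y hy _ ⟨w, rfl⟩
    refine ⟨ρ y w, ?_⟩
    simp only [LinearMap.sub_apply, Module.End.one_apply, map_sub]
    rw [← Module.End.mul_apply, ← Module.End.mul_apply, ← map_mul, ← map_mul, D.Yc _ (D.ZY hz₀) _ hy]
  have hC0 : LinearMap.range (ρ z₀ - 1) ≠ ⊥ := by
    intro h
    apply hρ
    rw [LinearMap.range_eq_bot] at h
    exact sub_eq_zero.mp h
  obtain ⟨v, hvC, hv0, μ, hμ⟩ := exists_eigenvector ρ Y D.Yc _ hCinv hC0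
  have hμz : μ z₀ ≠ 1 := by
    intro h1
    obtain ⟨w, rfl⟩ := hvC
    have h2 := hμ z₀ (D.ZY hz₀)
    rw [h1, one_smul] at h2
    set v := (ρ z₀ - 1) w with hv
    have h3 : ρ z₀ (ρ z₀ v) + ρ z₀ v + v = 0 := by
      rw [hv]
      simp only [LinearMap.sub_apply, Module.End.one_apply, map_sub]
      have e3 : ρ z₀ (ρ z₀ (ρ z₀ w)) = w := by
        rw [← Module.End.mul_apply, ← Module.End.mul_apply, ← map_mul, ← map_mul]
        have : z₀ * z₀ * z₀ = z₀ ^ 3 := by rw [pow_succ, pow_two]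
        rw [this, hz3, map_one]
        rfl
      rw [e3]
      abel
    rw [h2, h2] at h3
    have h4 : (3 : ℂ) • v = 0 := by
      rw [show (3 : ℂ) = 1 + 1 + 1 by norm_num, add_smul, add_smul, one_smul]
      exact h3
    rcases smul_eq_zero.mp h4 with h5 | h5
    · norm_num at h5
    · exact hv0 h5
  -- `μ` is multiplicative
  have hμ1 : μ 1 = 1 := by
    have h2 := hμ 1 (one_mem _)
    rw [map_one, Module.End.one_apply] at h2
    have h3 : (μ 1 - 1) • v = 0 := by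
      rw [sub_smul, one_smul, ← h2, sub_self]
    rcases smul_eq_zero.mp h3 with h5 | h5
    · exact sub_eq_zero.mp h5
    · exact absurd h5 hv0
  have hμmul : ∀ y ∈ Y, ∀ y' ∈ Y, μ (y * y') = μ y * μ y' := by
    intro y hy y' hy'
    have h2 := hμ _ (mul_mem hy hy')
    rw [map_mul, Module.End.mul_apply, hμ y' hy', map_smul, hμ y hy, smul_smul] at h2
    have h3 : (μ y' * μ y - μ (y * y')) • v = 0 := by
      rw [sub_smul, h2, sub_self]
    rcases smul_eq_zero.mp h3 with h5 | h5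
    · rw [← sub_eq_zero.mp h5, mul_comm]
    · exact absurd h5 hv0
  have hμinv : ∀ y ∈ Y, μ y⁻¹ * μ y = 1 := by
    intro y hy
    rw [← hμmul _ (inv_mem hy) _ hy, inv_mul_cancel, hμ1]
  -- the stabiliser
  have hst : ∀ g ∈ B U H, (∀ y ∈ Y, μ (g⁻¹ * y * g) = μ y) → g ∈ Y := by
    intro g hg hfix
    obtain ⟨u, hu, h, hh, rfl⟩ := (S.mem_B).mp hg
    have hh1 : h = 1 := by
      by_contra hne
      obtain ⟨z', hz', e⟩ := D.F5 h⁻¹ (inv_mem hh) (inv_ne_one.mpr hne) z₀ hz₀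
      have h2 := hfix z' (D.ZY hz')
      have e2 : (u * h)⁻¹ * z' * (u * h) = h⁻¹ * z' * h⁻¹⁻¹ := by
        have : z' * u = u * z' := D.Zc z' hz' u hu
        calc (u * h)⁻¹ * z' * (u * h) = h⁻¹ * (u⁻¹ * (z' * u)) * h := by group
          _ = h⁻¹ * (u⁻¹ * (u * z')) * h := by rw [this]
          _ = h⁻¹ * z' * h⁻¹⁻¹ := by group
      rw [e2] at h2
      have hmem : h⁻¹ * z' * h⁻¹⁻¹ ∈ Z := by
        have := D.ZN h (H_le_B hh) z' hz'
        simpa using this
      have h3 : μ z₀ = 1 := by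
        rw [e, hμmul _ (D.ZY hmem) _ (inv_mem (D.ZY hz')), h2, mul_comm]
        exact hμinv _ (D.ZY hz')
      exact hμz h3
    subst hh1
    rw [mul_one] at hfix ⊢
    by_contra hn
    have hn' : u⁻¹ ∉ Y := fun h' => hn (by simpa using inv_mem h')
    obtain ⟨y, hy, e⟩ := D.F4 u⁻¹ (inv_mem hu) hn' z₀ hz₀
    have h2 := hfix y hy
    have hmem : u⁻¹ * y * u⁻¹⁻¹ ∈ Y := by
      have := D.YN u (U_le_B hu) y hy
      simpa using this
    have h3 : μ z₀ = 1 := by
      have e4 : u⁻¹ * y * u⁻¹⁻¹ = u⁻¹ * y * u := by simp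
      rw [e, hμmul _ hmem _ (inv_mem hy), e4, h2, mul_comm]
      exact hμinv _ hy
    exact hμz h3
  have hBN : ∀ g ∈ B U H, ∀ y ∈ Y, g⁻¹ * y * g ∈ Y := D.YN
  -- the fixed points of `Z`
  let CZ : Submodule ℂ V := ⨅ z : Z, LinearMap.ker (ρ z.1 - 1)
  have hCZ : ∀ {w : V}, w ∈ CZ ↔ ∀ z ∈ Z, ρ z w = w := by
    intro w
    simp only [CZ, Submodule.mem_iInf, LinearMap.mem_ker, LinearMap.sub_apply, Module.End.one_apply, sub_eq_zero]
    exact ⟨fun h z hz => h ⟨z, hz⟩, fun h z => h z.1 z.2⟩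
  have hq2 := q_ge m R.hm
  have hq1 : 1 ≤ q := by omega
  have hqs : q ^ 2 - q + 1 = q * (q - 1) + 1 := by
    have hle : q ≤ q ^ 2 := by nlinarith
    have e2 : q ^ 2 = q * (q - 1) + q := by
      generalize q = r at *
      obtain ⟨d, rfl⟩ : ∃ d, r = d + 1 := ⟨r - 1, by omega⟩
      simp only [Nat.add_sub_cancel]
      ring
    generalize q * (q - 1) = X at *
    generalize q ^ 2 = Y' at *
    omega
  rw [hqs]
  by_cases hCZ0 : CZ = ⊥
  · -- no fixed points: the traces of the involutions vanish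
    letI : Fintype Z := Fintype.ofFinite _
    have hsum : ∑ z : Z, ρ z.1 = 0 := by
      ext w
      have hw : (∑ z : Z, ρ z.1) w ∈ CZ := by
        rw [hCZ]
        intro z' hz'
        simp only [LinearMap.sum_apply, map_sum]
        apply Fintype.sum_equiv (Equiv.mulLeft (⟨z', hz'⟩ : Z))
        intro z
        rw [← Module.End.mul_apply, ← map_mul]
        rfl
      rw [hCZ0, Submodule.mem_bot] at hw
      simpa using hw
    have hinv : ∀ z ∈ Z, ∃ x, a * z = x * a * x⁻¹ := by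
      intro z hz
      apply R.inv_conj
      · calc a * z * (a * z) = (a * z * a) * z := by group
          _ = z⁻¹ * z := by rw [D.Za z hz]
          _ = 1 := by group
      · intro h
        have h1 : a = z⁻¹ := eq_inv_of_mul_eq_one_left h
        apply R.a_ne
        apply S.U_H _ _ R.a_H
        rw [h1]
        exact inv_mem (hZU hz)
    have htr_a : LinearMap.trace ℂ V (ρ a) = 0 := by
      have h1 : ∑ z : Z, LinearMap.trace ℂ V (ρ (a * z.1)) = 0 := by
        have : ∀ z : Z, ρ (a * z.1) = ρ a * ρ z.1 := fun z => map_mul _ _ _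
        simp only [this, ← map_sum, ← Finset.mul_sum, hsum, mul_zero, map_zero]
      have h2 : ∀ z : Z, LinearMap.trace ℂ V (ρ (a * z.1)) = LinearMap.trace ℂ V (ρ a) := by
        intro z
        obtain ⟨x, hx⟩ := hinv z.1 z.2
        rw [hx, trace_conj_eq]
      simp only [h2, Finset.sum_const, Finset.card_univ, nsmul_eq_mul] at h1
      rcases mul_eq_zero.mp h1 with h3 | h3
      · exfalso
        have h4 : Fintype.card Z = 0 := by exact_mod_cast h3
        exact Fintype.card_ne_zero h4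
      · exact h3
    have htr : ∀ t : G, t * t = 1 → t ≠ 1 → LinearMap.trace ℂ V (ρ t) = 0 := by
      intro t h1 h2
      obtain ⟨x, hx⟩ := R.inv_conj t h1 h2
      rw [hx, trace_conj_eq, htr_a]
    -- two commuting involutions
    have hV : ({x : G | x ∈ M ∧ x * x = 1} \ {1}).ncard = 3 := by
      rw [Set.ncard_diff_singleton_of_mem (show (1 : G) ∈ {x : G | x ∈ M ∧ x * x = 1} from ⟨one_mem _, mul_one _⟩), R.M_V]
    obtain ⟨t, ⟨⟨htM, ht2⟩, ht1⟩, -⟩ := Set.exists_ne_of_one_lt_ncard (s := {x : G | x ∈ M ∧ x * x = 1} \ {1}) (by rw [hV]; norm_num) (1 : G)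
    obtain ⟨t', ⟨⟨htM', ht2'⟩, ht1'⟩, htt⟩ := Set.exists_ne_of_one_lt_ncard (s := {x : G | x ∈ M ∧ x * x = 1} \ {1}) (by rw [hV]; norm_num) t
    have hcomm : t * t' = t' * t := R.M_comm _ htM _ htM'
    have h4 : 4 ∣ finrank ℂ V := by
      apply four_dvd ρ ht2 ht2' hcomm (htr t ht2 ht1) (htr t' ht2' ht1')
      apply htr
      · calc t * t' * (t * t') = t * (t' * t) * t' := by group
          _ = t * (t * t') * t' := by rw [hcomm]
          _ = (t * t) * (t' * t') := by group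
          _ = 1 := by rw [ht2, ht2', one_mul]
      · intro h
        apply htt
        have h1 : t' = t⁻¹ := eq_inv_of_mul_eq_one_right h
        rw [h1]
        exact inv_eq_of_mul_eq_one_left ht2
    have h5 := index_le_finrank ρ (B U H) Y D.Yc hBN hv0 hμ hst
    rw [hidx] at h5
    have h6 : finrank ℂ V ≠ q * (q - 1) := by
      intro h
      rw [h] at h4
      have h8 := (q_facts m).1
      generalize q = r at *
      obtain ⟨e, rfl⟩ : ∃ e, r = 8 * e + 3 := ⟨r / 8, by omega⟩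
      have e7 : (8 * e + 3) * (8 * e + 3 - 1) = 4 * ((8 * e + 3) * (2 * e) + 4 * e + 1) + 2 := by
        have : 8 * e + 3 - 1 = 8 * e + 2 := by omega
        rw [this]
        ring
      rw [e7] at h4
      omega
    omega
  · -- a fixed point
    have hCZinv : ∀ y ∈ Y, ∀ w ∈ CZ, ρ y w ∈ CZ := by
      intro y hy w hw
      rw [hCZ] at hw ⊢
      intro z hz
      rw [← Module.End.mul_apply, ← map_mul, D.Yc _ (D.ZY hz) _ hy, map_mul, Module.End.mul_apply, hw z hz]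
    obtain ⟨v₀, hv₀C, hv₀0, μ₀, hμ₀⟩ := exists_eigenvector ρ Y D.Yc _ hCZinv hCZ0
    have hμ₀z : ∀ z ∈ Z, μ₀ z = 1 := by
      intro z hz
      have h2 := hμ₀ z (D.ZY hz)
      rw [hCZ.mp hv₀C z hz] at h2
      have h3 : (μ₀ z - 1) • v₀ = 0 := by
        rw [sub_smul, one_smul, ← h2, sub_self]
      rcases smul_eq_zero.mp h3 with h5 | h5
      · exact sub_eq_zero.mp h5
      · exact absurd h5 hv₀0
    have h5 := index_succ_le_finrank ρ (B U H) Y D.Yc hBN hv0 hμ hst hv₀0 hμ₀ (by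
      intro g hg hall
      apply hμz
      have h1 : g * z₀ * g⁻¹ ∈ Z := by
        have := D.ZN g⁻¹ (inv_mem hg) z₀ hz₀
        simpa using this
      have h2 := hall _ (D.ZY h1)
      have e : g⁻¹ * (g * z₀ * g⁻¹) * g = z₀ := by group
      rw [e, hμ₀z _ h1] at h2
      exact h2)
    rw [hidx] at h5
    exact h5

end Main

end Cfsg.Agent.Lib.ReeG2.Deg
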