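import Cfsg.Agent.Lib.ReeG2.Con6
import Cfsg.Agent.Lib.ReeG2.Deg
import Cfsg.Agent.Lib.SUDeg.Final

/-!
# The minimal degree of a nontrivial complex representation of the small Ree group
-/

set_option autoImplicit false
set_option linter.unusedTactic false
set_option linter.unreachableTactic false
set_option linter.unusedSectionVars false
set_option linter.unusedVariables false
set_option linter.ambiguousOpen false
set_option linter.dupNamespace false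
set_option maxHeartbeats 2000000

namespace Cfsg.Agent.Lib.ReeG2.Con8

open scoped MatrixGroups Matrix
open Cfsg Lie ChevalleyDatum
open Cfsg.Agent.Lib.Chev
open Tables Tables2 Tables3 Raise Basic AxBasic Torus Products Products2 Mono1 Mono2 Mono3 Bn ChevSimple
open Cfsg.Agent.Lib.Twisted.Fact Cfsg.Agent.Lib.Twisted.Bruhat Cfsg.Agent.Lib.Twisted.Tw
open Cfsg.Agent.Lib.Twisted.Struct Cfsg.Agent.Lib.Twisted.Check Cfsg.Agent.Lib.Twisted.Ortho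
open Cfsg.Agent.Lib.ReeG2.Blocks Cfsg.Agent.Lib.ReeG2.Tw Cfsg.Agent.Lib.ReeG2.Blk7 Cfsg.Agent.Lib.ReeG2.Unip
open Cfsg.Agent.Lib.ReeG2.RTD Cfsg.Agent.Lib.ReeG2.H1 Cfsg.Agent.Lib.ReeG2.Rank1 Cfsg.Agent.Lib.ReeG2.Rank1.Sp Cfsg.Agent.Lib.ReeG2.Str
open Cfsg.Agent.Lib.ReeG2.Fini Cfsg.Agent.Lib.ReeG2.Fini2 Cfsg.Agent.Lib.ReeG2.L Cfsg.Agent.Lib.ReeG2.Rank1b
open Cfsg.Agent.Lib.ReeG2.L2 Cfsg.Agent.Lib.ReeG2.L3 Cfsg.Agent.Lib.ReeG2.L4 Cfsg.Agent.Lib.ReeG2.L5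
open Cfsg.Agent.Lib.ReeG2.T Cfsg.Agent.Lib.ReeG2.Con1 Cfsg.Agent.Lib.ReeG2.Con2 Cfsg.Agent.Lib.ReeG2.Con3 Cfsg.Agent.Lib.ReeG2.Con4
open Cfsg.Agent.Lib.ReeG2.Ab1 Cfsg.Agent.Lib.ReeG2.Ab2 Cfsg.Agent.Lib.ReeG2.Ab3 Cfsg.Agent.Lib.ReeG2.Ab4 Cfsg.Agent.Lib.ReeG2.Ab5
open Cfsg.Agent.Lib.ReeG2.Deg
open Cfsg.Agent.Lib.Chev.SL2 (upM loM)

section Twist

variable {F : Type*} [Field F] [CharP F 3] (ax : Ax chevG2 F)
variable (f : F ≃+* F) {e : ℕ} (hf : ∀ t, f t = t ^ e) (hff : ∀ t, f (f t) ^ 3 = t)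

include ax hf hff

/-- The subgroup `U₂ = {x(0, u, v)}`. -/
def YY : Subgroup ↥(twistedG2 F e) where
  carrier := {x | ∃ u v, x.1 = xx ax f 0 u v}
  mul_mem' := by
    rintro _ _ ⟨u, v, h⟩ ⟨u', v', h'⟩
    refine ⟨u + u', v + v', ?_⟩
    show _ * _ = _
    rw [h, h', xx_mul0 ax f hf hff]
  one_mem' := ⟨0, 0, (xx_zero' ax f).symm⟩
  inv_mem' := by
    rintro _ ⟨u, v, h⟩
    refine ⟨-u, -v, ?_⟩
    show _⁻¹ = _
    rw [h, xx_inv0 ax f hf hff]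

/-- The subgroup `U₃ = {x(0, 0, v)}`. -/
def ZZ : Subgroup ↥(twistedG2 F e) where
  carrier := {x | ∃ v, x.1 = xx ax f 0 0 v}
  mul_mem' := by
    rintro _ _ ⟨v, h⟩ ⟨v', h'⟩
    refine ⟨v + v', ?_⟩
    show _ * _ = _
    rw [h, h', xx_mul0 ax f hf hff]
    simp
  one_mem' := ⟨0, (xx_zero' ax f).symm⟩
  inv_mem' := by
    rintro _ ⟨v, h⟩
    refine ⟨-v, ?_⟩
    show _⁻¹ = _
    rw [h, xx_inv0 ax f hf hff]
    simp

lemma mem_YY {x : ↥(twistedG2 F e)} : x ∈ YY ax f hf hff ↔ ∃ u v, x.1 = xx ax f 0 u v := Iff.rfl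

lemma mem_ZZ {x : ↥(twistedG2 F e)} : x ∈ ZZ ax f hf hff ↔ ∃ v, x.1 = xx ax f 0 0 v := Iff.rfl

lemma ZZ_le : ZZ ax f hf hff ≤ YY ax f hf hff := by
  rintro x ⟨v, h⟩
  exact ⟨0, v, h⟩

lemma YY_le : YY ax f hf hff ≤ UG F e := by
  rintro x ⟨u, v, h⟩
  show x.1 ∈ chevG2.posUnipotent F ⊓ twistedG2 F e
  rw [h]
  exact xx_mem_U1 ax f hf hff _ _ _

lemma comm_ZZ (v t a b : F) : xx ax f 0 0 v * xx ax f t a b = xx ax f t a b * xx ax f 0 0 v := by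
  rw [xx_mul ax f hff, xx_mul ax f hff]
  simp only [map_zero, ne_eq, OfNat.ofNat_ne_zero, not_false_eq_true, zero_pow, mul_zero, zero_mul, zero_add, add_zero, sub_zero]
  congr 1
  ring

lemma comm_YY (t a b c d : F) :
    xx ax f t a b * xx ax f 0 c d = xx ax f 0 0 (t * c) * (xx ax f 0 c d * xx ax f t a b) := by
  rw [xx_mul ax f hff, xx_mul ax f hff, xx_mul ax f hff]
  simp only [map_zero, ne_eq, OfNat.ofNat_ne_zero, not_false_eq_true, zero_pow, mul_zero, zero_mul, zero_add, add_zero, sub_zero]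
  congr 1
  · ring
  · ring

lemma conj_U_Y (t a b c d : F) : ∃ c' d', (xx ax f t a b)⁻¹ * xx ax f 0 c d * xx ax f t a b = xx ax f 0 c' d' := by
  rw [xx_inv ax f hff, xx_mul ax f hff, xx_mul ax f hff]
  simp only [map_zero, ne_eq, OfNat.ofNat_ne_zero, not_false_eq_true, zero_pow, mul_zero, zero_mul, zero_add, add_zero, sub_zero, neg_add_cancel]
  exact ⟨_, _, rfl⟩

lemma conj_H_Y (l : Fˣ) (c d : F) : ∃ c' d', (hh f l)⁻¹ * xx ax f 0 c d * hh f l = xx ax f 0 c' d' := by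
  have h1 := hh_conj_xx ax f hff l⁻¹ 0 c d
  rw [← hh_inv f, inv_inv, mul_zero] at h1
  exact ⟨_, _, h1⟩

lemma conj_H_Z (l : Fˣ) (d : F) : ∃ d', (hh f l)⁻¹ * xx ax f 0 0 d * hh f l = xx ax f 0 0 d' := by
  have h1 := hh_conj_xx ax f hff l⁻¹ 0 0 d
  rw [← hh_inv f, inv_inv, mul_zero, mul_zero] at h1
  exact ⟨_, h1⟩

lemma H_form (hns : ∀ l : Fˣ, (∃ ν : Fˣ, l = ν ^ 2) ∨ ∃ ν : Fˣ, l = -ν ^ 2) {h : ↥(twistedG2 F e)} (hh₀ : h ∈ HG F e) :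
    ∃ l : Fˣ, h.1 = hh f l := by
  obtain ⟨l, hl⟩ := (hhG_bij ax f hf hff hns).2 ⟨h.1, hh₀⟩
  exact ⟨l, (congrArg Subtype.val hl).symm⟩

lemma card_YY : Nat.card (YY ax f hf hff) = Nat.card F ^ 2 := by
  rw [pow_two, ← Nat.card_prod]
  apply Nat.card_congr
  symm
  refine Equiv.ofBijective (fun p : F × F => ⟨⟨xx ax f 0 p.1 p.2, xx_mem ax f hf _ _ _⟩, ⟨p.1, p.2, rfl⟩⟩) ⟨?_, ?_⟩
  · rintro ⟨u, v⟩ ⟨u', v'⟩ h
    have h1 : xx ax f 0 u v = xx ax f 0 u' v' :=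
      congrArg (fun x : YY ax f hf hff => ((x : ↥(twistedG2 F e)) : GL chevG2.Idx F)) h
    obtain ⟨-, h2, h3⟩ := xx_inj ax f h1
    rw [h2, h3]
  · rintro ⟨y, u, v, h⟩
    exact ⟨(u, v), Subtype.ext (Subtype.ext h.symm)⟩

theorem ZY_data [Finite F] (hns : ∀ l : Fˣ, (∃ ν : Fˣ, l = ν ^ 2) ∨ ∃ ν : Fˣ, l = -ν ^ 2) {m : ℕ}
    (hq : Nat.card F = 3 ^ (2 * m + 1)) :
    ZY (UG F e) (HG F e) (YY ax f hf hff) (ZZ ax f hf hff) (aG ax f hf hff) m where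
  ZY := ZZ_le ax f hf hff
  YU := YY_le ax f hf hff
  Yc := by
    rintro y ⟨u, v, h⟩ y' ⟨u', v', h'⟩
    apply Subtype.ext
    show y.1 * y'.1 = y'.1 * y.1
    rw [h, h', xx_mul0 ax f hf hff, xx_mul0 ax f hf hff, add_comm u, add_comm v]
  Zc := by
    rintro z ⟨v, h⟩ u hu
    obtain ⟨t, a, b, hu'⟩ := U_form ax f hf hff hu
    apply Subtype.ext
    show z.1 * u.1 = u.1 * z.1
    rw [h, hu']
    exact comm_ZZ ax f hf hff v t a b
  YN := by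
    rintro g hg y ⟨c, d, hy⟩
    obtain ⟨u, hu, h, hh₀, rfl⟩ := ((spR ax f hf hff hns).mem_B).mp hg
    obtain ⟨t, a, b, hu'⟩ := U_form ax f hf hff hu
    obtain ⟨l, hl⟩ := H_form ax f hf hff hns hh₀
    obtain ⟨c', d', e1⟩ := conj_U_Y ax f hf hff t a b c d
    obtain ⟨c'', d'', e2⟩ := conj_H_Y ax f hf hff l c' d'
    refine ⟨c'', d'', ?_⟩
    show (u.1 * h.1)⁻¹ * y.1 * (u.1 * h.1) = _
    rw [hu', hl, hy, ← e2, ← e1]
    group
  ZN := by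
    rintro g hg y ⟨d, hy⟩
    obtain ⟨u, hu, h, hh₀, rfl⟩ := ((spR ax f hf hff hns).mem_B).mp hg
    obtain ⟨t, a, b, hu'⟩ := U_form ax f hf hff hu
    obtain ⟨l, hl⟩ := H_form ax f hf hff hns hh₀
    obtain ⟨d', e2⟩ := conj_H_Z ax f hf hff l d
    refine ⟨d', ?_⟩
    show (u.1 * h.1)⁻¹ * y.1 * (u.1 * h.1) = _
    rw [hu', hl, hy, ← e2]
    have hc := comm_ZZ ax f hf hff d t a b
    calc (xx ax f t a b * hh f l)⁻¹ * xx ax f 0 0 d * (xx ax f t a b * hh f l)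
        = (hh f l)⁻¹ * ((xx ax f t a b)⁻¹ * (xx ax f 0 0 d * xx ax f t a b)) * hh f l := by group
      _ = (hh f l)⁻¹ * ((xx ax f t a b)⁻¹ * (xx ax f t a b * xx ax f 0 0 d)) * hh f l := by rw [hc]
      _ = _ := by group
  F4 := by
    rintro u hu hn z ⟨w, hz⟩
    obtain ⟨t, a, b, hu'⟩ := U_form ax f hf hff hu
    have ht : t ≠ 0 := by
      rintro rfl
      exact hn ⟨a, b, hu'⟩
    refine ⟨⟨xx ax f 0 (w / t) 0, xx_mem ax f hf _ _ _⟩, ⟨w / t, 0, rfl⟩, ?_⟩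
    apply Subtype.ext
    show z.1 = u.1 * xx ax f 0 (w / t) 0 * u.1⁻¹ * (xx ax f 0 (w / t) 0)⁻¹
    rw [hz, hu']
    have hc := comm_YY ax f hf hff t a b (w / t) 0
    rw [mul_div_cancel₀ _ ht] at hc
    rw [hc]
    group
  F5 := by
    rintro h hh₀ h1 z ⟨w, hz⟩
    obtain ⟨l, hl⟩ := H_form ax f hf hff hns hh₀
    have hl1 : l ≠ 1 := by
      rintro rfl
      apply h1
      apply Subtype.ext
      show h.1 = 1
      rw [hl, hh_one]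
    have hc : (f l) ^ 3 * (l : F) ^ 2 ≠ 1 := fun h2 => hl1 (Units.ext (eq_one_of_fix_v f hff h2))
    have hc' : (f l) ^ 3 * (l : F) ^ 2 - 1 ≠ 0 := sub_ne_zero.mpr hc
    refine ⟨⟨xx ax f 0 0 (w / ((f l) ^ 3 * (l : F) ^ 2 - 1)), xx_mem ax f hf _ _ _⟩, ⟨_, rfl⟩, ?_⟩
    apply Subtype.ext
    show z.1 = h.1 * xx ax f 0 0 (w / ((f l) ^ 3 * (l : F) ^ 2 - 1)) * h.1⁻¹ * (xx ax f 0 0 (w / ((f l) ^ 3 * (l : F) ^ 2 - 1)))⁻¹
    rw [hz, hl, hh_conj_xx ax f hff, xx_inv0 ax f hf hff, mul_zero, mul_zero, xx_mul0 ax f hf hff]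
    simp only [neg_zero, add_zero]
    congr 1
    field_simp
    ring
  Y3 := by
    rintro y ⟨u, v, h⟩
    apply Subtype.ext
    show y.1 ^ 3 = 1
    rw [h, xx_cube ax f hff]
    simp [xx_zero']
  cardY := by rw [card_YY ax f hf hff, hq]
  Za := by
    rintro z ⟨v, h⟩
    apply Subtype.ext
    show aa * z.1 * aa = z.1⁻¹
    have e1 : (hh f (-1 : Fˣ))⁻¹ = hh f (-1) := by
      rw [hh_inv f]
      simp
    have e2 := hh_conj_xx ax f hff (-1) 0 0 v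
    rw [e1] at e2
    rw [← hh_neg_one f, h, e2, xx_inv0 ax f hf hff]
    congr 1
    · simp
    · simp
    · simp
      ring

end Twist

variable {K : Type*} [Field K] [Fintype K] {m : ℕ}

/-- **The minimal degree**. -/
theorem res2343 (hm : 1 ≤ m) (hK : Fintype.card K = 3 ^ (2 * m + 1)) {k : ℕ}
    (ρ : Representation ℂ ↥(twistedG2 K (3 ^ m)) (Fin k → ℂ)) (hirr : ρ.IsIrreducible) (h2 : 2 ≤ k) :
    (3 ^ (2 * m + 1)) ^ 2 - 3 ^ (2 * m + 1) + 1 ≤ k := by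
  obtain ⟨hc, f, hf, hff, ax, hns⟩ := exists_ctx hK
  haveI := hc
  haveI : Finite ↥(twistedG2 K (3 ^ m)) := inferInstance
  obtain ⟨A, R⟩ := Cfsg.Agent.Lib.ReeG2.Con6.Rd_concrete hm hK f hf hff ax hns
  have D := ZY_data ax f hf hff hns (natcard hK)
  obtain ⟨g, hg⟩ := Cfsg.Agent.Lib.SUDeg.Final.exists_ne_one_of_irr ρ hirr h2
  have hsimple := (res1073 hm hK).1
  have hz : ∃ z₀ ∈ ZZ ax f hf hff, ρ z₀ ≠ 1 := by
    by_contra hcon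
    push Not at hcon
    have hker : (MonoidHom.ker ρ) = ⊤ := by
      rcases hsimple.eq_bot_or_eq_top_of_normal (MonoidHom.ker ρ) inferInstance with h | h
      · exfalso
        have h1 : (⟨xx ax f 0 0 1, xx_mem ax f hf _ _ _⟩ : ↥(twistedG2 K (3 ^ m))) ∈ MonoidHom.ker ρ :=
          MonoidHom.mem_ker.mpr (hcon _ ⟨1, rfl⟩)
        rw [h, Subgroup.mem_bot] at h1
        have h2 : xx ax f 0 0 (1 : K) = xx ax f 0 0 0 := by
          rw [xx_zero']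
          exact congrArg Subtype.val h1
        have h3 := (xx_inj ax f h2).2.2
        exact one_ne_zero h3
      · exact h
    apply hg
    have : g ∈ MonoidHom.ker ρ := by
      rw [hker]
      exact Subgroup.mem_top g
    exact MonoidHom.mem_ker.mp this
  obtain ⟨z₀, hz₀, hρ⟩ := hz
  have := deg_bound R D ρ hz₀ hρ
  simpa using this

end Cfsg.Agent.Lib.ReeG2.Con8
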